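import Cfsg.Agent.Marg54.Count

/-!
Bochert's bound on the minimal degree of a 4-transitive group.
-/

set_option autoImplicit false

namespace CfsgLib.Marg54

open MulAction

universe u

variable {G : Type*} {α : Type u} [Group G] [Fintype G] [DecidableEq G] [MulAction G α]
  [Fintype α] [DecidableEq α]

theorem inj3 {a b c : α} (h1 : a ≠ b) (h2 : a ≠ c) (h3 : b ≠ c) :
    Function.Injective ![a, b, c] := by
  intro i j h
  fin_cases i <;> fin_cases j <;>
    first
      | rfl
      | exact absurd h h1 | exact absurd h h2 | exact absurd h h3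
      | exact absurd h.symm h1 | exact absurd h.symm h2 | exact absurd h.symm h3

theorem inj4 {a b c d : α} (h1 : a ≠ b) (h2 : a ≠ c) (h3 : a ≠ d) (h4 : b ≠ c) (h5 : b ≠ d)
    (h6 : c ≠ d) : Function.Injective ![a, b, c, d] := by
  intro i j h
  fin_cases i <;> fin_cases j <;>
    first
      | rfl
      | exact absurd h h1 | exact absurd h h2 | exact absurd h h3
      | exact absurd h h4 | exact absurd h h5 | exact absurd h h6
      | exact absurd h.symm h1 | exact absurd h.symm h2 | exact absurd h.symm h3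
      | exact absurd h.symm h4 | exact absurd h.symm h5 | exact absurd h.symm h6

/-- Swapping the order of counting. -/
theorem sum_card_filter {β : Type*} (E : Finset G) (P : Finset β) (R : G → β → Prop)
    [∀ g b, Decidable (R g b)] :
    (∑ g ∈ E, (P.filter fun b => R g b).card) = ∑ b ∈ P, (E.filter fun g => R g b).card := by
  simp only [Finset.card_filter]
  exact Finset.sum_comm

theorem ineq_odd {n m : ℤ} (hn : 2 * m + 3 ≤ n) (hm : 5 ≤ m) :
    (n - 2) * (n - 3) + (m - 2) * (m - 1) * (n - 3) + (n - 2) * (n - 3) +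
      (m - 3) * (n - m - 1) * (m - 1) + (n - m) * ((n - 3) + (m - 2) ^ 2) < m * ((n - 2) * (n - 3)) := by
  obtain ⟨c, hc, rfl⟩ : ∃ c, 0 ≤ c ∧ m = c + 5 := ⟨m - 5, by omega, by omega⟩
  obtain ⟨b, hb, rfl⟩ : ∃ b, 0 ≤ b ∧ n = 2 * (c + 5) + 3 + b := ⟨n - (2 * (c + 5) + 3), by omega, by omega⟩
  nlinarith [mul_nonneg hb hc, mul_nonneg hb hb, mul_nonneg hc hc, mul_nonneg (mul_nonneg hb hc) hc,
    mul_nonneg (mul_nonneg hb hb) hc, mul_nonneg (mul_nonneg hb hb) hb]

theorem ineq_two {n m : ℤ} (hn : 2 * m + 3 ≤ n) (hm : 6 ≤ m) (h7 : m ≠ 7) (h15 : m = 6 → n ≠ 15) :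
    (n - 2) * (n - 3) + (m - 2) * (m - 1) * (n - 3) + (n - 2) * (n - 3) +
      (m - 2) * (n - m - 1) * (m - 1) + (n - m) * ((n - 3) + (m - 2) ^ 2) <
      m * ((n - 2) * (n - 3)) + (m - 2) ^ 2 := by
  rcases (show m = 6 ∨ 8 ≤ m by omega) with rfl | hm8
  · have := h15 rfl
    obtain ⟨b, hb, rfl⟩ : ∃ b, 0 ≤ b ∧ n = 16 + b := ⟨n - 16, by omega, by omega⟩
    nlinarith [mul_nonneg hb hb]
  obtain ⟨c, hc, rfl⟩ : ∃ c, 0 ≤ c ∧ m = c + 8 := ⟨m - 8, by omega, by omega⟩
  obtain ⟨b, hb, rfl⟩ : ∃ b, 0 ≤ b ∧ n = 2 * (c + 8) + 3 + b := ⟨n - (2 * (c + 8) + 3), by omega, by omega⟩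
  nlinarith [mul_nonneg hb hc, mul_nonneg hb hb, mul_nonneg hc hc, mul_nonneg (mul_nonneg hb hc) hc,
    mul_nonneg (mul_nonneg hb hb) hc, mul_nonneg (mul_nonneg hb hb) hb]

set_option maxHeartbeats 1000000 in
theorem false_of_small_minimal_degree (hK : LW54.KT G α 4) (x : G)
    (hmin : ∀ g : G, g ≠ 1 → (mv x : Finset α).card ≤ (mv g : Finset α).card)
    (hn : 2 * (mv x : Finset α).card + 3 ≤ Fintype.card α) (hm : 5 ≤ (mv x : Finset α).card)
    (hx : (∀ z : α, z ∈ mv x → x • x • z ≠ z) ∨ ((∀ z : α, x • x • z = z) ∧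
      6 ≤ (mv x : Finset α).card ∧ (mv x : Finset α).card ≠ 7 ∧
      ((mv x : Finset α).card = 6 → Fintype.card α ≠ 15))) : False := by
  classical
  set S : Finset α := mv x with hS
  set m := S.card with hmdef
  set n := Fintype.card α with hndef
  obtain ⟨a, ha⟩ := Finset.card_pos.mp (show 0 < S.card by omega)
  set b := x • a with hb'
  have hba : b ≠ a := mem_mv.mp ha
  have hbS : b ∈ S := smul_mem_mv ha
  set E := (Finset.univ : Finset G).filter fun h => h • a ∉ S ∧ h • b ∈ S with hE
  set U := (S.erase a).erase b with hU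
  have hUmem : ∀ z, z ∈ U ↔ z ≠ b ∧ z ≠ a ∧ z ∈ S := fun z => by simp [hU]
  have hUc : U.card = m - 2 := by
    rw [hU, Finset.card_erase_of_mem (Finset.mem_erase.mpr ⟨hba, hbS⟩), Finset.card_erase_of_mem ha]
    omega
  set Z := U.filter fun z => x • z ≠ a with hZ
  have hcompl : (Sᶜ : Finset α).card = n - m := by rw [Finset.card_compl]
  have hoff : ∀ T : Finset α, T.offDiag.card = T.card * (T.card - 1) := fun T => by
    rw [Finset.offDiag_card, Nat.mul_sub_one]
  -- the pairs of points off a given cycle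
  set P2 : Finset (Σ _ : α, α) := S.sigma fun w => (S.erase w).erase (x • w) with hP2
  have hP2c : P2.card = m * (m - 2) := by
    rw [hP2, Finset.card_sigma, Finset.sum_congr rfl (g := fun _ => m - 2) fun w hw => ?_,
      Finset.sum_const, smul_eq_mul]
    rw [Finset.card_erase_of_mem (Finset.mem_erase.mpr ⟨mem_mv.mp hw, smul_mem_mv hw⟩),
      Finset.card_erase_of_mem hw]
    omega
  set N3 := n.descFactorial 3 with hN3
  set c := Fintype.card G with hc
  have cE : E.card * n.descFactorial 2 = (n - m) * m * c := by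
    rw [hE, count_eq (hK.mono (show 2 ≤ 4 by omega)) (u := ![a, b]) (P := (Sᶜ : Finset α) ×ˢ S)
      (v := fun p => ![p.1, p.2]) ?_ ?_ ?_ ?_, Finset.card_product, hcompl]
    · intro i j h
      fin_cases i <;> fin_cases j <;> first | rfl | exact absurd h hba.symm | exact absurd h hba
    · rintro ⟨p, q⟩ hp i j h
      simp only [Finset.mem_product, Finset.mem_compl] at hp
      have hpq : p ≠ q := fun e => hp.1 (e ▸ hp.2)
      fin_cases i <;> fin_cases j <;> first | rfl | exact absurd h hpq | exact absurd h.symm hpq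
    · rintro ⟨p, q⟩ _ ⟨p', q'⟩ _ h
      exact Prod.ext (congrFun h 0) (congrFun h 1)
    · intro g
      simp [Fin.forall_fin_two]
  have cI : ∀ z ∈ U, (E.filter fun h => h • z ∈ S).card * N3 = (n - m) * (m * (m - 1)) * c := by
    intro z hz
    rw [hUmem] at hz
    rw [hE, Finset.filter_filter, count_eq (hK.mono (show 3 ≤ 4 by omega)) (u := ![a, b, z])
      (P := (Sᶜ : Finset α) ×ˢ S.offDiag) (v := fun p => ![p.1, p.2.1, p.2.2]) ?_ ?_ ?_ ?_,
      Finset.card_product, hcompl, hoff]
    · exact inj3 hba.symm hz.2.1.symm hz.1.symm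
    · rintro ⟨p, q, r⟩ hp
      simp only [Finset.mem_product, Finset.mem_compl, Finset.mem_offDiag] at hp
      dsimp only
      exact inj3 (fun e => hp.1 (e ▸ hp.2.1)) (fun e => hp.1 (e ▸ hp.2.2.1)) hp.2.2.2
    · rintro ⟨p, q, r⟩ _ ⟨p', q', r'⟩ _ h
      exact Prod.ext (congrFun h 0) (Prod.ext (congrFun h 1) (congrFun h 2))
    · intro g
      constructor
      · rintro ⟨⟨h1, h2⟩, h3⟩
        exact ⟨(g • a, g • b, g • z), by simp [h1, h2, h3, hz.1.symm], fun i => by fin_cases i <;> rfl⟩
      · rintro ⟨⟨p, q, r⟩, hp, h⟩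
        simp only [Finset.mem_product, Finset.mem_compl, Finset.mem_offDiag] at hp
        have h0 : g • a = p := h 0
        have h1 : g • b = q := h 1
        have h2 : g • z = r := h 2
        rw [h0, h1, h2]; exact ⟨⟨hp.1, hp.2.1⟩, hp.2.2.1⟩
  have cA : ∀ z ∈ Z, (E.filter fun h => h • z ∉ S ∧ h • x • z ∈ S).card * n.descFactorial 4 =
      (n - m) * (n - m - 1) * (m * (m - 1)) * c := by
    intro z hz
    simp only [hZ, Finset.mem_filter, hUmem] at hz
    obtain ⟨⟨hzb, hza, hzS⟩, hxa⟩ := hz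
    have hxb : x • z ≠ b := fun e => hza (MulAction.injective x e)
    rw [hE, Finset.filter_filter, count_eq hK (u := ![a, b, z, x • z])
      (P := (Sᶜ : Finset α).offDiag ×ˢ S.offDiag) (v := fun p => ![p.1.1, p.2.1, p.1.2, p.2.2]) ?_ ?_ ?_ ?_,
      Finset.card_product, hoff, hoff, hcompl]
    · exact inj4 hba.symm hza.symm hxa.symm hzb.symm hxb.symm (mem_mv.mp hzS).symm
    · rintro ⟨⟨p, q⟩, r, s⟩ hp
      simp only [Finset.mem_product, Finset.mem_compl, Finset.mem_offDiag] at hp
      obtain ⟨⟨hp, hq, hpq⟩, hr, hs, hrs⟩ := hp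
      dsimp only
      exact inj4 (fun e => hp (e ▸ hr)) hpq (fun e => hp (e ▸ hs)) (fun e => hq (e ▸ hr)) hrs
        (fun e => hq (e ▸ hs))
    · rintro ⟨⟨p, q⟩, r, s⟩ _ ⟨⟨p', q'⟩, r', s'⟩ _ h
      exact Prod.ext (Prod.ext (congrFun h 0) (congrFun h 2)) (Prod.ext (congrFun h 1) (congrFun h 3))
    · intro g
      constructor
      · rintro ⟨⟨h1, h2⟩, h3, h4⟩
        exact ⟨((g • a, g • z), g • b, g • x • z),
          by simp [h1, h2, h3, h4, hza.symm, hxb.symm],
          fun i => by fin_cases i <;> rfl⟩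
      · rintro ⟨⟨⟨p, q⟩, r, s⟩, hp, h⟩
        simp only [Finset.mem_product, Finset.mem_compl, Finset.mem_offDiag] at hp
        have h0 : g • a = p := h 0
        have h1 : g • b = r := h 1
        have h2 : g • z = q := h 2
        have h3 : g • x • z = s := h 3
        rw [h0, h1, h2, h3]; exact ⟨⟨hp.1.1, hp.2.1⟩, hp.1.2.1, hp.2.2.1⟩
  have cB1 : ∀ z ∈ (Sᶜ : Finset α),
      (E.filter fun h => h • z ∈ S ∧ h • b = x • h • z).card * N3 = (n - m) * m * c := by
    intro z hz
    rw [Finset.mem_compl] at hz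
    rw [hE, Finset.filter_filter, count_eq (hK.mono (show 3 ≤ 4 by omega)) (u := ![a, b, z])
      (P := (Sᶜ : Finset α) ×ˢ S) (v := fun p => ![p.1, x • p.2, p.2]) ?_ ?_ ?_ ?_,
      Finset.card_product, hcompl]
    · exact inj3 hba.symm (fun e => hz (e ▸ ha)) (fun e => hz (e ▸ hbS))
    · rintro ⟨p, q⟩ hp
      simp only [Finset.mem_product, Finset.mem_compl] at hp
      dsimp only
      exact inj3 (fun e => hp.1 (e ▸ smul_mem_mv hp.2)) (fun e => hp.1 (e ▸ hp.2)) (mem_mv.mp hp.2)
    · rintro ⟨p, q⟩ _ ⟨p', q'⟩ _ h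
      exact Prod.ext (congrFun h 0) (congrFun h 2)
    · intro g
      constructor
      · rintro ⟨⟨h1, -⟩, h3, h4⟩
        exact ⟨(g • a, g • z), by simp [h1, h3], fun i => by fin_cases i <;> simp [h4]⟩
      · rintro ⟨⟨p, q⟩, hp, h⟩
        simp only [Finset.mem_product, Finset.mem_compl] at hp
        have h0 : g • a = p := h 0
        have h1 : g • b = x • q := h 1
        have h2 : g • z = q := h 2
        rw [h0, h1, h2]; exact ⟨⟨hp.1, smul_mem_mv hp.2⟩, hp.2, rfl⟩
  have c4 : ∀ z v : α, a ≠ z → a ≠ v → b ≠ z → b ≠ v → z ≠ v →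
      (E.filter fun h => h • z ∈ S ∧ h • v = x • h • z).card * n.descFactorial 4 =
        (n - m) * (m * (m - 2)) * c := by
    intro z v h1 h2 h3 h4 h5
    rw [hE, Finset.filter_filter, count_eq hK (u := ![a, b, z, v])
      (P := (Sᶜ : Finset α) ×ˢ P2) (v := fun p => ![p.1, p.2.2, p.2.1, x • p.2.1]) ?_ ?_ ?_ ?_,
      Finset.card_product, hcompl, hP2c]
    · exact inj4 hba.symm h1 h2 h3 h4 h5
    · rintro ⟨p, ⟨w, q⟩⟩ hp
      simp only [hP2, Finset.mem_product, Finset.mem_compl, Finset.mem_sigma, Finset.mem_erase] at hp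
      obtain ⟨hp, hw, hqx, hqw, hq⟩ := hp
      dsimp only
      exact inj4 (fun e => hp (e ▸ hq)) (fun e => hp (e ▸ hw)) (fun e => hp (e ▸ smul_mem_mv hw)) hqw
        hqx (mem_mv.mp hw).symm
    · rintro ⟨p, ⟨w, q⟩⟩ _ ⟨p', ⟨w', q'⟩⟩ _ h
      have e0 : p = p' := congrFun h 0
      have e1 : q = q' := congrFun h 1
      have e2 : w = w' := congrFun h 2
      subst e0 e1 e2; rfl
    · intro g
      constructor
      · rintro ⟨⟨k1, k2⟩, k3, k4⟩
        refine ⟨(g • a, ⟨g • z, g • b⟩), ?_, fun i => by fin_cases i <;> simp [k4]⟩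
        simp only [hP2, Finset.mem_product, Finset.mem_compl, Finset.mem_sigma, Finset.mem_erase]
        exact ⟨k1, k3, fun e => h4 (MulAction.injective g (e.trans k4.symm)),
          fun e => h3 (MulAction.injective g e), k2⟩
      · rintro ⟨⟨p, ⟨w, q⟩⟩, hp, h⟩
        simp only [hP2, Finset.mem_product, Finset.mem_compl, Finset.mem_sigma, Finset.mem_erase] at hp
        have k0 : g • a = p := h 0
        have k1 : g • b = q := h 1
        have k2 : g • z = w := h 2
        have k3 : g • v = x • w := h 3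
        rw [k0, k1, k2, k3]; exact ⟨⟨hp.1, hp.2.2.2.2⟩, hp.2.1, rfl⟩
  -- the pointwise bound
  let I0 : G → ℕ := fun h => (U.filter fun z => h • z ∈ S).card
  let A0 : G → ℕ := fun h => (Z.filter fun z => h • z ∉ S ∧ h • x • z ∈ S).card
  let B1 : G → ℕ := fun h => ((Sᶜ : Finset α).filter fun z => h • z ∈ S ∧ h • b = x • h • z).card
  let B2 : G → ℕ := fun h => (((Sᶜ : Finset α) ×ˢ U).filter fun p =>
    h • p.1 ∈ S ∧ h • p.2 = x • h • p.1).card
  let W0 : G → ℕ := fun h => if ∀ z : α, x • x • z = z then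
    (U.filter fun z => h • z ∈ S ∧ h • x • z = x • h • z).card else 0
  have hpt : ∀ h ∈ E, m + W0 h ≤ 1 + I0 h + (1 + A0 h) + (B1 h + B2 h) := by
    intro h hh
    simp only [hE, Finset.mem_filter, Finset.mem_univ, true_and] at hh
    set y := h⁻¹ * x * h with hy
    have hyS : ∀ z, z ∈ (mv y : Finset α) ↔ h • z ∈ S := fun z => by
      rw [hS, mem_mv, mem_mv, hy, mul_smul, mul_smul, ne_eq, ne_eq, inv_smul_eq_iff]
    have hya : y • a = a := notMem_mv.mp (by rw [hyS]; exact hh.1)
    have hyb : y • b ≠ b := mem_mv.mp (by rw [hyS]; exact hh.2)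
    have hne : x * y * x⁻¹ * y⁻¹ ≠ 1 := by
      intro e
      have hcm : x * y = y * x := by
        rw [show x * y = x * y * x⁻¹ * y⁻¹ * (y * x) by group, e, one_mul]
      have := congrArg (fun t : G => t • a) hcm
      simp only [mul_smul, hya] at this
      exact hyb this.symm
    have h1 := hmin _ hne
    rw [card_mv_commutator] at h1
    set Wz := U.filter fun z => (∀ t : α, x • x • t = t) ∧ h • z ∈ S ∧ h • x • z = x • h • z with hWz
    have hW0 : W0 h = Wz.card := by
      simp only [W0]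
      split_ifs with hc'
      · simp only [hWz, hc', implies_true, true_and]
      · simp [hWz, hc']
    have hdisj : Disjoint (ncp x y : Finset α) Wz := by
      rw [Finset.disjoint_left]
      intro z hz hzW
      simp only [hWz, Finset.mem_filter] at hzW
      obtain ⟨-, hinv, -, hz2⟩ := hzW
      simp only [ncp, Finset.mem_filter, Finset.mem_univ, true_and] at hz
      apply hz
      have e1 : y • z = x • z := by
        rw [hy, mul_smul, mul_smul, ← hz2, inv_smul_smul]
      have e2 : y • x • z = z := by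
        rw [hy, mul_smul, mul_smul, hz2, hinv, inv_smul_smul]
      rw [e1, e2, hinv]
    set J := insert b (U.filter fun z => h • z ∈ S)
    set K := insert a (Z.filter fun z => h • z ∉ S ∧ h • x • z ∈ S)
    set L1 := (Sᶜ : Finset α).filter fun z => h • z ∈ S ∧ h • b = x • h • z
    set L2 := (((Sᶜ : Finset α) ×ˢ U).filter fun p => h • p.1 ∈ S ∧ h • p.2 = x • h • p.1).image Prod.fst
    have hsub : (ncp x y : Finset α) ∪ Wz ⊆ J ∪ K ∪ (L1 ∪ L2) := by
      refine Finset.union_subset (ncp_subset.trans fun z hz => ?_) fun z hz => ?_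
      · simp only [Finset.mem_union, Finset.mem_inter, Finset.mem_filter, Finset.mem_sdiff, ← hS, hyS] at hz
        rcases hz with (⟨h2, h3⟩ | ⟨⟨h2, h3⟩, h4⟩) | ⟨⟨h2, h3⟩, h4⟩
        · refine Finset.mem_union_left _ (Finset.mem_union_left _ ?_)
          by_cases hzb : z = b
          · exact Finset.mem_insert.mpr (Or.inl hzb)
          · refine Finset.mem_insert.mpr (Or.inr (Finset.mem_filter.mpr ⟨(hUmem z).mpr ⟨hzb, ?_, h2⟩, h3⟩))
            rintro rfl; exact hh.1 h3
        · refine Finset.mem_union_left _ (Finset.mem_union_right _ ?_)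
          by_cases hza : z = a
          · exact Finset.mem_insert.mpr (Or.inl hza)
          · refine Finset.mem_insert.mpr (Or.inr (Finset.mem_filter.mpr ⟨?_, h3, h4⟩))
            rw [hZ, Finset.mem_filter, hUmem]
            refine ⟨⟨?_, hza, h2⟩, fun e => hh.1 (e ▸ h4)⟩
            rintro rfl; exact h3 hh.2
        · refine Finset.mem_union_right _ ?_
          have hu : h • y • z = x • h • z := by rw [hy, mul_smul, mul_smul, smul_inv_smul]
          by_cases hub : y • z = b
          · refine Finset.mem_union_left _ (Finset.mem_filter.mpr ⟨Finset.mem_compl.mpr h3, h2, ?_⟩)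
            rw [← hub, hu]
          · refine Finset.mem_union_right _ (Finset.mem_image.mpr ⟨(z, y • z), ?_, rfl⟩)
            refine Finset.mem_filter.mpr ⟨Finset.mem_product.mpr ⟨Finset.mem_compl.mpr h3,
              (hUmem _).mpr ⟨hub, ?_, h4⟩⟩, h2, hu⟩
            intro e
            apply hh.1
            rw [← e, hu]
            exact smul_mem_mv h2
      · simp only [hWz, Finset.mem_filter] at hz
        exact Finset.mem_union_left _ (Finset.mem_union_left _
          (Finset.mem_insert_of_mem (Finset.mem_filter.mpr ⟨hz.1, hz.2.2.1⟩)))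
    calc m + W0 h ≤ ((ncp x y : Finset α) ∪ Wz).card := by
          rw [Finset.card_union_of_disjoint hdisj, hW0]; omega
      _ ≤ _ := Finset.card_le_card hsub
      _ ≤ J.card + K.card + (L1.card + L2.card) :=
          (Finset.card_union_le _ _).trans (Nat.add_le_add (Finset.card_union_le _ _) (Finset.card_union_le _ _))
      _ ≤ _ := by
          have e1 : J.card ≤ 1 + I0 h := (Finset.card_insert_le _ _).trans (by simp only [I0]; omega)
          have e2 : K.card ≤ 1 + A0 h := (Finset.card_insert_le _ _).trans (by simp only [A0]; omega)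
          have e3 : L2.card ≤ B2 h := Finset.card_image_le
          have e4 : L1.card = B1 h := rfl
          omega
  have hsum := Finset.sum_le_sum hpt
  simp only [Finset.sum_add_distrib, Finset.sum_const, smul_eq_mul] at hsum
  -- evaluation of the sums
  set D := (n - 2) * (n - 3) with hD
  have hd2 : n.descFactorial 4 = n.descFactorial 2 * D := by
    simp only [hD, Nat.descFactorial_succ, Nat.descFactorial_zero, Nat.sub_zero]; ring
  have hd3 : n.descFactorial 4 = N3 * (n - 3) := by
    rw [hN3, Nat.descFactorial_succ n 3, mul_comm]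
  have sI : (∑ h ∈ E, I0 h) * n.descFactorial 4 = (m - 2) * ((n - m) * (m * (m - 1))) * (n - 3) * c := by
    simp only [I0]
    rw [sum_card_filter, Finset.sum_mul, hd3, Finset.sum_congr rfl
      (g := fun _ => (n - m) * (m * (m - 1)) * c * (n - 3)) (fun z hz => by rw [← mul_assoc, cI z hz]),
      Finset.sum_const, smul_eq_mul, hUc]
    ring
  have sA : (∑ h ∈ E, A0 h) * n.descFactorial 4 = Z.card * ((n - m) * (n - m - 1) * (m * (m - 1))) * c := by
    simp only [A0]
    rw [sum_card_filter, Finset.sum_mul, Finset.sum_congr rfl cA, Finset.sum_const, smul_eq_mul]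
    ring
  have sB1 : (∑ h ∈ E, B1 h) * n.descFactorial 4 = (n - m) * ((n - m) * m) * (n - 3) * c := by
    simp only [B1]
    rw [sum_card_filter, Finset.sum_mul, hd3, Finset.sum_congr rfl
      (g := fun _ => (n - m) * m * c * (n - 3)) (fun z hz => by rw [← mul_assoc, cB1 z hz]),
      Finset.sum_const, smul_eq_mul, hcompl]
    ring
  have sB2 : (∑ h ∈ E, B2 h) * n.descFactorial 4 =
      (n - m) * (m - 2) * ((n - m) * (m * (m - 2))) * c := by
    simp only [B2]
    rw [sum_card_filter, Finset.sum_mul, Finset.sum_congr rfl (g := fun _ => (n - m) * (m * (m - 2)) * c)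
      (fun p hp => ?_), Finset.sum_const, smul_eq_mul, Finset.card_product, hcompl, hUc]
    · ring
    · simp only [Finset.mem_product, Finset.mem_compl, hUmem] at hp
      exact c4 p.1 p.2 (fun e => hp.1 (e ▸ ha)) hp.2.2.1.symm (fun e => hp.1 (e ▸ hbS)) hp.2.1.symm
        (fun e => hp.1 (e ▸ hp.2.2.2))
  have sW : (∀ z : α, x • x • z = z) → (∑ h ∈ E, W0 h) * n.descFactorial 4 =
      (m - 2) * ((n - m) * (m * (m - 2))) * c := by
    intro hinv
    simp only [W0, hinv, implies_true, if_true]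
    rw [sum_card_filter, Finset.sum_mul, Finset.sum_congr rfl (g := fun _ => (n - m) * (m * (m - 2)) * c)
      (fun z hz => ?_), Finset.sum_const, smul_eq_mul, hUc]
    · ring
    · rw [hUmem] at hz
      exact c4 z (x • z) hz.2.1.symm (fun e => hz.1 (by rw [hb', e, hinv]))
        hz.1.symm (fun e => hz.2.1 (MulAction.injective x e.symm)) (mem_mv.mp hz.2.2).symm
  have sE : E.card * n.descFactorial 4 = (n - m) * m * c * D := by
    rw [hd2, ← mul_assoc, cE]
  have hmn : m ≤ n := by omega
  have hpos : (0 : ℤ) < ((n : ℤ) - m) * m * c := by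
    have : 0 < c := Fintype.card_pos
    refine mul_pos (mul_pos (by omega) (by omega)) (by omega)
  have hscaled := Nat.mul_le_mul_right (n.descFactorial 4) hsum
  have cI' : ((m - 1 : ℕ) : ℤ) = (m : ℤ) - 1 := by omega
  have cI2 : ((m - 2 : ℕ) : ℤ) = (m : ℤ) - 2 := by omega
  have cn : ((n - m : ℕ) : ℤ) = (n : ℤ) - m := by omega
  have cn1 : ((n - m - 1 : ℕ) : ℤ) = (n : ℤ) - m - 1 := by omega
  have cn2 : ((n - 2 : ℕ) : ℤ) = (n : ℤ) - 2 := by omega
  have cn3 : ((n - 3 : ℕ) : ℤ) = (n : ℤ) - 3 := by omega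
  rcases hx with hodd | ⟨hinv, h6, h7, h15⟩
  · have hZc : Z.card ≤ m - 3 := by
      have hex : x⁻¹ • a ∈ U := by
        rw [hUmem]
        refine ⟨fun e => hodd a ha ?_, fun e => mem_mv.mp ha ?_, ?_⟩
        · show x • b = a
          rw [← e, smul_inv_smul]
        · conv_lhs => rw [← e, smul_inv_smul]
        · rw [hS, ← smul_mem_mv_iff (g := x), smul_inv_smul]; exact ha
      have h1 : Z ⊆ U.erase (x⁻¹ • a) := fun z hz => by
        rw [hZ, Finset.mem_filter] at hz
        exact Finset.mem_erase.mpr ⟨fun e => hz.2 (by rw [e, smul_inv_smul]), hz.1⟩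
      have h2 := Finset.card_le_card h1
      rw [Finset.card_erase_of_mem hex, hUc] at h2
      omega
    have sA' : (∑ h ∈ E, A0 h) * n.descFactorial 4 ≤ (m - 3) * ((n - m) * (n - m - 1) * (m * (m - 1))) * c :=
      sA.trans_le (Nat.mul_le_mul_right _ (Nat.mul_le_mul_right _ hZc))
    have hfin : E.card * n.descFactorial 4 * m ≤ 2 * (E.card * n.descFactorial 4) +
        (∑ h ∈ E, I0 h) * n.descFactorial 4 + (m - 3) * ((n - m) * (n - m - 1) * (m * (m - 1))) * c +
        ((∑ h ∈ E, B1 h) * n.descFactorial 4 + (∑ h ∈ E, B2 h) * n.descFactorial 4) := by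
      simp only [add_mul, mul_one] at hscaled
      linarith [hscaled, sA', Nat.zero_le ((∑ h ∈ E, W0 h) * n.descFactorial 4), show E.card * n.descFactorial 4 * m = E.card * m * n.descFactorial 4 from mul_right_comm _ _ _]
    rw [sE, sI, sB1, sB2, hD] at hfin
    have cI3 : ((m - 3 : ℕ) : ℤ) = (m : ℤ) - 3 := by omega
    zify at hfin
    rw [cI', cI2, cI3, cn, cn1, cn2, cn3] at hfin
    have := mul_lt_mul_of_pos_left (ineq_odd (n := (n : ℤ)) (m := (m : ℤ)) (by omega) (by omega)) hpos
    linarith [hfin, this]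
  · have hZc : Z.card ≤ m - 2 := hUc ▸ Finset.card_filter_le _ _
    have sA' : (∑ h ∈ E, A0 h) * n.descFactorial 4 ≤ (m - 2) * ((n - m) * (n - m - 1) * (m * (m - 1))) * c :=
      sA.trans_le (Nat.mul_le_mul_right _ (Nat.mul_le_mul_right _ hZc))
    have hfin : E.card * n.descFactorial 4 * m + (∑ h ∈ E, W0 h) * n.descFactorial 4 ≤
        2 * (E.card * n.descFactorial 4) +
        (∑ h ∈ E, I0 h) * n.descFactorial 4 + (m - 2) * ((n - m) * (n - m - 1) * (m * (m - 1))) * c +
        ((∑ h ∈ E, B1 h) * n.descFactorial 4 + (∑ h ∈ E, B2 h) * n.descFactorial 4) := by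
      simp only [add_mul, mul_one] at hscaled
      linarith [hscaled, sA', Nat.zero_le ((∑ h ∈ E, W0 h) * n.descFactorial 4), show E.card * n.descFactorial 4 * m = E.card * m * n.descFactorial 4 from mul_right_comm _ _ _]
    rw [sE, sI, sB1, sB2, sW hinv, hD] at hfin
    zify at hfin
    rw [cI', cI2, cn, cn1, cn2, cn3] at hfin
    have := mul_lt_mul_of_pos_left (ineq_two (n := (n : ℤ)) (m := (m : ℤ)) (by omega) (by omega)
      (by omega) (fun h => by have := h15 (by omega); omega)) hpos
    linarith [hfin, this]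

end CfsgLib.Marg54
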