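import Cfsg.Agent.LW54.Basic

/-!
Counting in multiply transitive groups, and moved points of commutators.
-/

set_option autoImplicit false

namespace CfsgLib.Marg54

open MulAction

universe u

variable {G : Type*} {α : Type u} [Group G] [Fintype G] [DecidableEq G] [MulAction G α]
  [Fintype α] [DecidableEq α]

/-- The moved points. -/
def mv (g : G) : Finset α := Finset.univ.filter fun z => g • z ≠ z

theorem mem_mv {g : G} {z : α} : z ∈ mv g ↔ g • z ≠ z := by simp [mv]

theorem notMem_mv {g : G} {z : α} : z ∉ mv g ↔ g • z = z := by simp [mv]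

theorem smul_mem_mv {g : G} {z : α} (hz : z ∈ mv g) : g • z ∈ mv g :=
  mem_mv.mpr fun h => mem_mv.mp hz (MulAction.injective g h)

theorem smul_mem_mv_iff {g : G} {z : α} : g • z ∈ mv g ↔ z ∈ mv g :=
  ⟨fun h => by
    by_contra hz
    rw [notMem_mv.mp hz] at h
    exact hz h, smul_mem_mv⟩

/-- The points on which `x` and `y` do not commute. -/
def ncp (x y : G) : Finset α := Finset.univ.filter fun z => x • y • z ≠ y • x • z

theorem card_mv_commutator (x y : G) :
    (mv (x * y * x⁻¹ * y⁻¹) : Finset α).card = (ncp x y : Finset α).card := by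
  rw [← Finset.card_image_of_injective (ncp x y : Finset α) (MulAction.injective (y * x))]
  congr 1
  ext z
  simp only [Finset.mem_image, ncp, Finset.mem_filter, Finset.mem_univ, true_and, mem_mv]
  constructor
  · intro h
    refine ⟨(y * x)⁻¹ • z, fun h' => h ?_, smul_inv_smul _ _⟩
    simp only [← mul_smul] at h' ⊢
    have e : x * y * x⁻¹ * y⁻¹ = x * (y * (y * x)⁻¹) := by group
    have e' : y * (x * (y * x)⁻¹) = 1 := by group
    rw [e, h', e', one_smul]
  · rintro ⟨w, hw, rfl⟩
    intro h
    apply hw
    rw [← mul_smul, ← mul_smul, show x * y = x * y * x⁻¹ * y⁻¹ * (y * x) by group, mul_smul, h]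

theorem card_mv_conj (h x : G) : (mv (h * x * h⁻¹) : Finset α).card = (mv x : Finset α).card := by
  rw [← Finset.card_image_of_injective (mv x : Finset α) (MulAction.injective h)]
  congr 1
  ext z
  simp only [Finset.mem_image, mem_mv]
  constructor
  · intro hz
    refine ⟨h⁻¹ • z, fun h' => hz ?_, smul_inv_smul _ _⟩
    rw [mul_smul, mul_smul, h', smul_inv_smul]
  · rintro ⟨w, hw, rfl⟩ hz
    exact hw (MulAction.injective h (by simpa [mul_smul] using hz))

theorem ncp_subset {x y : G} :
    (ncp x y : Finset α) ⊆ (mv x ∩ mv y) ∪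
      ((mv x \ mv y).filter fun z => x • z ∈ mv y) ∪
      ((mv y \ mv x).filter fun z => y • z ∈ mv x) := by
  intro z hz
  simp only [ncp, Finset.mem_filter, Finset.mem_univ, true_and] at hz
  simp only [Finset.mem_union, Finset.mem_inter, Finset.mem_filter, Finset.mem_sdiff]
  by_cases hx : z ∈ (mv x : Finset α) <;> by_cases hy : z ∈ (mv y : Finset α)
  · exact Or.inl (Or.inl ⟨hx, hy⟩)
  · refine Or.inl (Or.inr ⟨⟨hx, hy⟩, ?_⟩)
    by_contra h
    exact hz (by rw [notMem_mv.mp hy, notMem_mv.mp h])
  · refine Or.inr ⟨⟨hy, hx⟩, ?_⟩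
    by_contra h
    exact hz (by rw [notMem_mv.mp hx, notMem_mv.mp h])
  · exact absurd (by rw [notMem_mv.mp hx, notMem_mv.mp hy, notMem_mv.mp hx]) hz

/-- The number of elements with prescribed images of a tuple. -/
theorem card_pin {j : ℕ} (hK : LW54.KT G α j) (u v : Fin j ↪ α) :
    (Finset.univ.filter fun g : G => g • u = v).card * (Fintype.card α).descFactorial j
      = Fintype.card G := by
  haveI : IsMultiplyPretransitive G α j := LW54.pretransitive_of_kt hK
  have hfib : ∀ w : Fin j ↪ α, (Finset.univ.filter fun g : G => g • u = w).card =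
      (Finset.univ.filter fun g : G => g • u = v).card := fun w => by
    obtain ⟨t, ht⟩ := exists_smul_eq G w v
    refine Finset.card_equiv (Equiv.mulLeft t) fun g => ?_
    simp only [Finset.mem_filter, Finset.mem_univ, true_and, Equiv.coe_mulLeft, mul_smul]
    rw [← ht, smul_left_cancel_iff]
  have h := Finset.card_eq_sum_card_fiberwise (f := fun g : G => g • u) (s := Finset.univ)
    (t := Finset.univ) (fun _ _ => Finset.mem_univ _)
  rw [Finset.sum_congr rfl (fun w _ => hfib w), Finset.sum_const, Finset.card_univ,
    Finset.card_univ, Fintype.card_embedding_eq, Fintype.card_fin, smul_eq_mul] at h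
  rw [h, mul_comm]

/-- Counting elements carrying a tuple into a set of tuples. -/
theorem card_tuple {j : ℕ} (hK : LW54.KT G α j) (u : Fin j ↪ α) (W : Finset (Fin j ↪ α)) :
    (Finset.univ.filter fun g : G => g • u ∈ W).card * (Fintype.card α).descFactorial j
      = W.card * Fintype.card G := by
  rw [Finset.card_eq_sum_card_fiberwise (f := fun g : G => g • u) (t := W)
    (s := Finset.univ.filter fun g : G => g • u ∈ W)
    (fun g hg => by simpa using hg), Finset.sum_mul]
  rw [Finset.sum_congr rfl (g := fun _ => Fintype.card G) fun w hw => ?_, Finset.sum_const,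
    smul_eq_mul]
  rw [Finset.filter_filter]
  convert card_pin hK u w using 3
  ext g
  simp only [Finset.mem_filter, Finset.mem_univ, true_and, and_iff_right_iff_imp]
  rintro rfl; exact hw

/-- Counting elements for which a condition amounts to prescribing a tuple from a list. -/
theorem count_eq {β : Type*} {j : ℕ} (hK : LW54.KT G α j) {u : Fin j → α}
    (hu : Function.Injective u) {Q : G → Prop} [DecidablePred Q] {P : Finset β}
    {v : β → Fin j → α} (hinj : ∀ p ∈ P, Function.Injective (v p))
    (hdist : ∀ p ∈ P, ∀ q ∈ P, v p = v q → p = q)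
    (hiff : ∀ g : G, Q g ↔ ∃ p ∈ P, ∀ i, g • u i = v p i) :
    (Finset.univ.filter Q).card * (Fintype.card α).descFactorial j = P.card * Fintype.card G := by
  classical
  let W : Finset (Fin j ↪ α) := P.attach.image fun p => ⟨v p.1, hinj p.1 p.2⟩
  have hW : W.card = P.card := by
    rw [Finset.card_image_of_injective, Finset.card_attach]
    intro p q h
    exact Subtype.ext (hdist p.1 p.2 q.1 q.2 (congrArg DFunLike.coe h))
  rw [← hW, ← card_tuple hK ⟨u, hu⟩ W]
  congr 2
  ext g
  simp only [Finset.mem_filter, Finset.mem_univ, true_and, hiff, W, Finset.mem_image,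
    Finset.mem_attach, Subtype.exists]
  constructor
  · rintro ⟨p, hp, h⟩
    exact ⟨p, hp, Function.Embedding.ext fun i => by simpa using (h i).symm⟩
  · rintro ⟨p, hp, h⟩
    exact ⟨p, hp, fun i => by simpa using (DFunLike.congr_fun h i).symm⟩

/-- Factorial moments of the intersection with a translate. -/
theorem moment {j : ℕ} (hK : LW54.KT G α j) (S : Finset α) :
    (∑ g : G, (S.filter fun z => g • z ∈ S).card.descFactorial j) *
        (Fintype.card α).descFactorial j
      = S.card.descFactorial j * S.card.descFactorial j * Fintype.card G := by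
  classical
  have hin : ∀ T : Finset α,
      ((Finset.univ : Finset (Fin j ↪ α)).filter fun e => ∀ i, e i ∈ T).card =
        T.card.descFactorial j := by
    intro T
    rw [← Fintype.card_subtype]
    calc Fintype.card {e : Fin j ↪ α // ∀ i, e i ∈ T} = Fintype.card (Fin j ↪ ↥T) :=
        Fintype.card_congr
          { toFun := fun e => ⟨fun i => ⟨e.1 i, e.2 i⟩, fun a b h =>
              e.1.injective (congrArg Subtype.val h)⟩
            invFun := fun e => ⟨e.trans (Function.Embedding.subtype _), fun i => (e i).2⟩
            left_inv := fun e => rfl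
            right_inv := fun e => rfl }
      _ = T.card.descFactorial j := by
        rw [Fintype.card_embedding_eq, Fintype.card_fin, Fintype.card_coe]
  set W := (Finset.univ : Finset (Fin j ↪ α)).filter fun e => ∀ i, e i ∈ S with hW
  have hg : ∀ g : G, (S.filter fun z => g • z ∈ S).card.descFactorial j =
      ∑ e ∈ W, if g • e ∈ W then 1 else 0 := by
    intro g
    rw [← hin, ← Finset.card_filter]
    congr 1
    ext e
    simp only [hW, Finset.mem_filter, Finset.mem_univ, true_and, Function.Embedding.smul_apply]
    exact forall_and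
  rw [Finset.sum_congr rfl (fun g _ => hg g), Finset.sum_comm, Finset.sum_mul,
    Finset.sum_congr rfl (g := fun _ => W.card * Fintype.card G) fun e _ => ?_,
    Finset.sum_const, smul_eq_mul, hin, mul_assoc]
  rw [← Finset.card_filter]
  exact card_tuple hK e W

end CfsgLib.Marg54
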