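import Cfsg.Agent.Marg54.Regular
import Cfsg.Agent.Marg54.Bochert
import Cfsg.Agent.Perm57.Marggraf
import Cfsg.Agent.PermPrimes.JordanCycle

/-!
Marggraf's theorem: a primitive group with a Jordan set of less than half of the points contains
the alternating group.
-/

set_option autoImplicit false

namespace CfsgLib.Marg54

open MulAction Equiv
open scoped Pointwise
open scoped Classical

universe u

variable {α : Type u} [Fintype α] [DecidableEq α]

theorem pow_smul_of_smul {G β : Type*} [Monoid G] [MulAction G β] {g : G} {z : β} (h : g • z = z) :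
    ∀ i : ℕ, g ^ i • z = z := fun i => by
  induction i with
  | zero => rw [pow_zero, one_smul]
  | succ i ih => rw [pow_succ, mul_smul, h, ih]

theorem mv_eq_support {G : Subgroup (Perm α)} (g : G) : (mv g : Finset α) = (g : Perm α).support := by
  ext z; rw [mem_mv, Perm.mem_support]; rfl

theorem alternating_le_of_tiny (G : Subgroup (Perm α)) (hprim : IsPreprimitive G α) (g : G) (hg : g ≠ 1)
    (h3 : (mv g : Finset α).card ≤ 3) : alternatingGroup α ≤ G := by
  rw [mv_eq_support] at h3
  have hg' : (g : Perm α) ≠ 1 := fun e => hg (Subtype.ext e)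
  have h2 : 2 ≤ (g : Perm α).support.card := Perm.two_le_card_support_of_ne_one hg'
  rcases (show (g : Perm α).support.card = 2 ∨ (g : Perm α).support.card = 3 by omega) with h | h
  · rw [Perm.subgroup_eq_top_of_isPreprimitive_of_isSwap_mem hprim g (Perm.card_support_eq_two.mp h) g.2]
    exact le_top
  · exact Perm.alternatingGroup_le_of_isPreprimitive_of_isThreeCycle_mem hprim
      (card_support_eq_three_iff.mp h) g.2

theorem four_transitive (G : Subgroup (Perm α)) (hprim : IsPreprimitive G α) (Γ : Finset α)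
    (h1 : 1 < Γ.card) (h2 : 2 * Γ.card < Fintype.card α)
    (hJ : Perm57.IsJordanSet G (Γ : Set α)) : LW54.KT G α 4 := by
  classical
  have h3 : IsMultiplyPretransitive G α 3 := Perm57.jordan_three_transitive (Γ : Set α)
    (by rwa [Set.ncard_coe_finset]) (by rw [Set.ncard_coe_finset, Nat.card_eq_fintype_card]; omega) hJ
  haveI := hprim.toIsPretransitive
  haveI := h3
  obtain ⟨a, ha⟩ : ∃ a, a ∉ Γ := by
    by_contra h
    push_neg at h
    have := Finset.card_le_card (fun z (_ : z ∈ (Finset.univ : Finset α)) => h z)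
    rw [Finset.card_univ] at this
    omega
  have hst : IsMultiplyPretransitive (stabilizer G a) (SubMulAction.ofStabilizer G a) 2 :=
    SubMulAction.ofStabilizer.isMultiplyPretransitive.mp h3
  haveI : IsPreprimitive (stabilizer G a) (SubMulAction.ofStabilizer G a) :=
    isPreprimitive_of_is_two_pretransitive hst
  let Γ' : Set (SubMulAction.ofStabilizer G a) := {z | (z : α) ∈ Γ}
  have hΓ' : Γ'.ncard = Γ.card := by
    rw [← Set.ncard_coe_finset, ← Set.ncard_image_of_injective Γ' Subtype.val_injective]
    congr 1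
    ext z
    constructor
    · rintro ⟨w, hw, rfl⟩; exact hw
    · intro hz
      exact ⟨⟨z, fun e => ha (e ▸ hz)⟩, hz, rfl⟩
  have hJ' : Perm57.IsJordanSet (stabilizer G a) Γ' := by
    intro x hx y hy
    obtain ⟨g, hg, hgx⟩ := hJ x hx y hy
    exact ⟨⟨g, hg a ha⟩, fun z hz => Subtype.ext (hg z hz), Subtype.ext hgx⟩
  have hc : Nat.card (SubMulAction.ofStabilizer G a) = Fintype.card α - 1 := by
    have e : Nat.card (SubMulAction.ofStabilizer G a) = Nat.card {z : α // z ≠ a} := rfl
    rw [e, Nat.card_eq_fintype_card, Fintype.card_subtype_compl, Fintype.card_subtype_eq]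
  have h4 := Perm57.jordan_three_transitive (G := stabilizer G a) Γ' (by omega) (by omega) hJ'
  refine LW54.kt_of_pretransitive ((SubMulAction.ofStabilizer.isMultiplyPretransitive (a := a)).mpr h4) ?_
  omega

theorem double_transposition (G : Subgroup (Perm α)) (hK : LW54.KT G α 4) (x : G)
    (hinv : ∀ z : α, x • x • z = z) (hm : (mv x : Finset α).card = 4) (hn : 4 < Fintype.card α) :
    ∃ g : G, g ≠ 1 ∧ (mv g : Finset α).card ≤ 3 := by
  classical
  obtain ⟨a, ha⟩ := Finset.card_pos.mp (show 0 < (mv x : Finset α).card by omega)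
  have hab : x • a ≠ a := mem_mv.mp ha
  have hb : x • a ∈ (mv x : Finset α) := smul_mem_mv ha
  obtain ⟨c, hc⟩ := Finset.card_pos.mp (show 0 < (((mv x : Finset α).erase a).erase (x • a)).card by
    rw [Finset.card_erase_of_mem (Finset.mem_erase.mpr ⟨hab, hb⟩), Finset.card_erase_of_mem ha, hm]
    omega)
  simp only [Finset.mem_erase] at hc
  obtain ⟨hcb, hca, hcS⟩ := hc
  have hcd : x • c ≠ c := mem_mv.mp hcS
  have hdS : x • c ∈ (mv x : Finset α) := smul_mem_mv hcS
  have hda : x • c ≠ a := fun e => hcb (by rw [← e, hinv])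
  have hdb : x • c ≠ x • a := fun e => hca (MulAction.injective x e)
  have hS : (mv x : Finset α) = {a, x • a, c, x • c} := by
    symm
    refine Finset.eq_of_subset_of_card_le (by
      simp [Finset.insert_subset_iff, ha, hb, hcS, hdS]) ?_
    rw [hm, Finset.card_insert_of_notMem (by simp [hab.symm, hca.symm, hda.symm]),
      Finset.card_insert_of_notMem (by simp [hcb.symm, hdb.symm]), Finset.card_pair hcd.symm]
  obtain ⟨e, he⟩ : ∃ e, e ∉ (mv x : Finset α) := by
    by_contra h
    push_neg at h
    have := Finset.card_le_card (fun z (_ : z ∈ (Finset.univ : Finset α)) => h z)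
    rw [Finset.card_univ] at this
    omega
  have hea : e ≠ a := fun h => he (h ▸ ha)
  have heb : e ≠ x • a := fun h => he (h ▸ hb)
  have hec : e ≠ c := fun h => he (h ▸ hcS)
  obtain ⟨g, hg⟩ := hK {a, x • a, c, x • c} (fun z => if z = x • c then e else z)
    (Finset.card_insert_le _ _ |>.trans (Nat.succ_le_succ (Finset.card_le_three))) (by
      intro z hz w hw
      simp only [Finset.coe_insert, Finset.coe_singleton, Set.mem_insert_iff, Set.mem_singleton_iff] at hz hw
      dsimp only
      split_ifs with h1 h2 h2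
      · intro; rw [h1, h2]
      · intro h; exfalso; rcases hw with rfl | rfl | rfl | rfl <;> simp_all
      · intro h; exfalso; rcases hz with rfl | rfl | rfl | rfl <;> simp_all
      · exact id)
  have ga : g • a = a := by rw [hg a (by simp)]; simp [hda.symm]
  have gb : g • x • a = x • a := by rw [hg _ (by simp)]; simp [hdb.symm]
  have gc : g • c = c := by rw [hg c (by simp)]; simp [hcd.symm]
  have gd : g • x • c = e := by rw [hg _ (by simp)]; simp
  set y := g * x * g⁻¹ with hy
  have yg : ∀ z : α, y • g • z = g • x • z := fun z => by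
    rw [hy, mul_smul, mul_smul, inv_smul_smul]
  have ya : y • a = x • a := by rw [← gb, ← yg, ga]
  have yb : y • x • a = a := by
    calc y • x • a = y • g • x • a := by rw [gb]
      _ = g • x • x • a := yg _
      _ = a := by rw [hinv, ga]
  have yc : y • c = e := by rw [← gd, ← yg, gc]
  have hmy : (mv y : Finset α) = {a, x • a, c, e} := by
    refine ((Finset.eq_of_subset_of_card_le ?_ ?_)).symm
    · simp only [Finset.insert_subset_iff, Finset.singleton_subset_iff, mem_mv, ya, yb, yc]
      refine ⟨hab, hab.symm, hec, fun h => ?_⟩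
      rw [← yc] at h
      exact hec (by rw [← yc]; exact MulAction.injective y h)
    · rw [hy, card_mv_conj, hm, Finset.card_insert_of_notMem (by simp [hab.symm, hca.symm, hea.symm]),
        Finset.card_insert_of_notMem (by simp [hcb.symm, heb.symm]), Finset.card_pair hec.symm]
  refine ⟨x * y, fun h => ?_, ?_⟩
  · have := congrArg (fun t : G => t • c) h
    simp only [mul_smul, yc, one_smul] at this
    rw [notMem_mv.mp he] at this
    exact hec this
  · refine (Finset.card_le_card (t := {c, x • c, e}) fun z hz => ?_).trans Finset.card_le_three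
    rw [mem_mv, mul_smul] at hz
    by_contra h
    simp only [Finset.mem_insert, Finset.mem_singleton, not_or] at h
    apply hz
    by_cases h1 : z = a
    · rw [h1, ya, hinv]
    by_cases h2 : z = x • a
    · rw [h2, yb]
    rw [notMem_mv.mp (show z ∉ (mv y : Finset α) by rw [hmy]; simp [h1, h2, h.1, h.2.2]),
      notMem_mv.mp (show z ∉ (mv x : Finset α) by rw [hS]; simp [h1, h2, h.1, h.2.1])]

/-- **Marggraf's theorem.** -/
theorem marggraf (G : Subgroup (Perm α)) (hprim : IsPreprimitive G α) (Γ : Finset α)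
    (h1 : 1 < Γ.card) (h2 : 2 * Γ.card < Fintype.card α)
    (hJ : Perm57.IsJordanSet G (Γ : Set α)) : alternatingGroup α ≤ G := by
  classical
  have hH : ∀ a ∈ Γ, ∀ b ∈ Γ, ∃ g : G, (mv g : Finset α) ⊆ Γ ∧ g • a = b := fun a ha b hb => by
    obtain ⟨g, hg, hgab⟩ := hJ a ha b hb
    refine ⟨g, fun z hz => ?_, hgab⟩
    by_contra hzΓ
    exact mem_mv.mp hz (hg z hzΓ)
  obtain ⟨a, ha, b, hb, hab⟩ := Finset.one_lt_card.mp h1
  obtain ⟨h₀, hh₀, hh₀ab⟩ := hH a ha b hb
  have hh₀1 : h₀ ≠ 1 := fun e => hab (by rw [← hh₀ab, e, one_smul])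
  by_cases h3 : Γ.card ≤ 3
  · exact alternating_le_of_tiny G hprim h₀ hh₀1 ((Finset.card_le_card hh₀).trans h3)
  by_cases hp : Γ.card.Prime
  · -- a cycle of prime length
    haveI : Fact Γ.card.Prime := ⟨hp⟩
    let H : Subgroup G := fixingSubgroup G ((Γ : Set α)ᶜ)
    have hdvd : Γ.card ∣ Nat.card H := by
      haveI : IsPretransitive H (SubMulAction.ofFixingSubgroup G ((Γ : Set α)ᶜ)) := ⟨fun u v => by
        obtain ⟨g, hg, hgu⟩ := hH u.1 (not_not.mp ((SubMulAction.mem_ofFixingSubgroup_iff G).mp u.2))
          v.1 (not_not.mp ((SubMulAction.mem_ofFixingSubgroup_iff G).mp v.2))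
        exact ⟨⟨g, (mem_fixingSubgroup_iff G).mpr fun z hz =>
          notMem_mv.mp fun h => hz (hg h)⟩, Subtype.ext hgu⟩⟩
      let u : SubMulAction.ofFixingSubgroup G ((Γ : Set α)ᶜ) := ⟨a, fun h => h ha⟩
      have := MulAction.index_stabilizer_of_transitive H u
      have hc : Nat.card (SubMulAction.ofFixingSubgroup G ((Γ : Set α)ᶜ)) = Γ.card := by
        rw [show Nat.card (SubMulAction.ofFixingSubgroup G ((Γ : Set α)ᶜ)) = Nat.card ↥(((Γ : Set α)ᶜ)ᶜ) from rfl,
          compl_compl, Nat.card_coe_set_eq, Set.ncard_coe_finset]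
      rw [← hc, ← this]
      exact Subgroup.index_dvd_card _
    obtain ⟨g, hg⟩ := exists_prime_orderOf_dvd_card' Γ.card hdvd
    have hsub : ((g.1 : G) : Perm α).support ⊆ Γ := by
      rw [← mv_eq_support]
      intro z hz
      by_contra hzΓ
      exact mem_mv.mp hz ((mem_fixingSubgroup_iff G).mp g.2 z hzΓ)
    have ho : orderOf ((g.1 : G) : Perm α) = Γ.card := by
      rw [← hg, Subgroup.orderOf_coe, Subgroup.orderOf_coe]
    have hlt : ((g.1 : G) : Perm α).support.card < 2 * orderOf ((g.1 : G) : Perm α) := by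
      rw [ho]; have := Finset.card_le_card hsub; omega
    have hcyc := Perm.isCycle_of_prime_order (by rwa [ho]) hlt
    exact PermPrimes.alternatingGroup_le_of_primitive_pCycle G hprim hp (by omega) hcyc
      (by rw [← hcyc.orderOf, ho]) (g.1 : G).2
  have hK := four_transitive G hprim Γ h1 h2 hJ
  -- an element of minimal degree and prime order
  obtain ⟨x₀, hx₀, hmin₀⟩ := Finset.exists_min_image (Finset.univ.filter fun g : G => g ≠ 1)
    (fun g => (mv g : Finset α).card) ⟨h₀, by simp [hh₀1]⟩
  simp only [Finset.mem_filter, Finset.mem_univ, true_and] at hx₀ hmin₀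
  obtain ⟨p, hpp, hpd⟩ := Nat.exists_prime_and_dvd (n := orderOf x₀) (fun e => hx₀ (orderOf_eq_one_iff.mp e))
  haveI : Fact p.Prime := ⟨hpp⟩
  obtain ⟨x, hxo, hxsub⟩ : ∃ x : G, orderOf x = p ∧ (mv x : Finset α) ⊆ mv x₀ := by
    refine ⟨x₀ ^ (orderOf x₀ / p), orderOf_pow_orderOf_div (orderOf_pos x₀).ne' hpd, fun z hz => ?_⟩
    by_contra hz0
    rw [mem_mv] at hz
    exact hz (pow_smul_of_smul (notMem_mv.mp hz0) _)
  have hx1 : x ≠ 1 := fun e => hpp.one_lt.ne' (by rw [← hxo, e, orderOf_one])
  have hmin : ∀ g : G, g ≠ 1 → (mv x : Finset α).card ≤ (mv g : Finset α).card := fun g hg =>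
    (Finset.card_le_card hxsub).trans (hmin₀ g hg)
  set m := (mv x : Finset α).card with hm
  have hmk : m ≤ Γ.card := (hmin h₀ hh₀1).trans (Finset.card_le_card hh₀)
  by_cases hm3 : m ≤ 3
  · exact alternating_le_of_tiny G hprim x hx1 hm3
  by_cases hmeq : m = Γ.card
  · exact (no_regular hK Γ (by omega) (by omega) hH (fun g hg => hmeq ▸ hmin g hg)).elim
  have hpow : ∀ z : α, x ^ p • z = z := fun z => by rw [← hxo, pow_orderOf_eq_one, one_smul]
  rcases hpp.eq_two_or_odd' with rfl | hodd
  · have hinv : ∀ z : α, x • x • z = z := fun z => by rw [← mul_smul, ← pow_two]; exact hpow z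
    by_cases hm4 : m = 4
    · obtain ⟨g, hg, hg3⟩ := double_transposition G hK x hinv hm4 (by omega)
      exact alternating_le_of_tiny G hprim g hg hg3
    have heven : 2 ∣ m := by
      rw [hm, mv_eq_support]
      exact Perm.two_dvd_card_support (by
        have e : ((x ^ 2 : G) : Perm α) = 1 := by rw [← hxo, pow_orderOf_eq_one]; rfl
        exact e)
    refine (false_of_small_minimal_degree hK x hmin (by omega) (by omega) (Or.inr ⟨hinv, by omega, by omega, ?_⟩)).elim
    intro h6 h15
    exact hp (by rw [show Γ.card = 7 by omega]; norm_num)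
  · have hne : ∀ z : α, z ∈ mv x → x • x • z ≠ z := by
      intro z hz h
      obtain ⟨q, hq⟩ := hodd
      have h' : ∀ i : ℕ, x ^ (2 * i) • z = z := fun i => by
        rw [pow_mul]
        exact pow_smul_of_smul (by rw [pow_two, mul_smul]; exact h) i
      have := hpow z
      rw [hq, pow_succ', mul_smul, h'] at this
      exact mem_mv.mp hz this
    have h5 : m ≠ 4 := by
      intro h4
      obtain ⟨c, hc⟩ := Perm.cycleType_prime_order (σ := ((x : G) : Perm α))
        (by rw [Subgroup.orderOf_coe, hxo]; exact hpp)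
      have hs := Perm.sum_cycleType ((x : G) : Perm α)
      rw [hc, Multiset.sum_replicate, smul_eq_mul, Subgroup.orderOf_coe, hxo, ← mv_eq_support, ← hm, h4] at hs
      have hd : p ∣ 4 := ⟨c + 1, by rw [← hs, mul_comm]⟩
      have h' : p ≤ 4 := Nat.le_of_dvd (by norm_num) hd
      obtain ⟨q, hq⟩ := hodd
      have := hpp.two_le
      rcases (show p = 3 by omega) with rfl
      omega
    exact (false_of_small_minimal_degree hK x hmin (by omega) (by omega) (Or.inl hne)).elim

end CfsgLib.Marg54
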