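import Cfsg.Agent.Marg54.Main

/-!
Quasiprimitive groups with a Jordan set of less than half of the points.
-/

set_option autoImplicit false

namespace CfsgLib.Marg54

open MulAction Equiv
open scoped Pointwise
open scoped Classical

/-- Even permutations fixing a point are generated by products of two swaps sharing a point. -/
theorem even_fix_mem {β : Type*} [Fintype β] [DecidableEq β] (D : β) (M : Subgroup (Perm β))
    (h3 : ∀ P Q R : β, P ≠ D → Q ≠ D → R ≠ D → P ≠ Q → P ≠ R → Q ≠ R →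
      swap P R * swap Q R ∈ M) {σ : Perm β} (hσ : Perm.sign σ = 1) (hD : σ D = D) : σ ∈ M := by
  have hpair : ∀ p q x y : β, p ≠ D → q ≠ D → x ≠ D → y ≠ D → p ≠ q → x ≠ y →
      swap p q * swap x y ∈ M := by
    intro p q x y hp hq hx hy hpq hxy
    by_cases e1 : x = q
    · by_cases e2 : y = p
      · subst e1 e2; rw [swap_comm x y, swap_mul_self]; exact M.one_mem
      · rw [e1, swap_comm q y]
        exact h3 p y q hp hy hq (Ne.symm e2) hpq (fun e => hxy (e1.trans e.symm))
    by_cases e2 : y = q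
    · by_cases e3 : x = p
      · subst e2 e3; rw [swap_mul_self]; exact M.one_mem
      · rw [e2]
        exact h3 p x q hp hx hq (Ne.symm e3) hpq e1
    by_cases e3 : x = p
    · rw [e3, swap_comm p q, swap_comm p y]
      exact h3 q y p hq hy hp (Ne.symm e2) hpq.symm (fun e => hxy (e3.trans e.symm))
    by_cases e4 : y = p
    · rw [e4, swap_comm p q]
      exact h3 q x p hq hx hp (Ne.symm e1) hpq.symm e3
    have h1 := h3 p x q hp hx hq (Ne.symm e3) hpq e1
    have h2 := h3 q y x hq hy hx (Ne.symm e2) (Ne.symm e1) hxy.symm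
    have := M.mul_mem h1 h2
    rwa [swap_comm q x, mul_assoc, ← mul_assoc (swap x q), swap_mul_self, one_mul, swap_comm y x] at this
  let s : {x // x ≠ D} → β := Subtype.val
  have key : ∀ τ : Perm {x // x ≠ D},
      (Perm.sign τ = 1 → Perm.ofSubtype τ ∈ M) ∧ (Perm.sign τ = -1 → ∀ p q : {x // x ≠ D}, p ≠ q →
        Perm.ofSubtype (swap p q * τ) ∈ M) := by
    intro τ
    induction τ using Perm.swap_induction_on with
    | one =>
      refine ⟨fun _ => by rw [map_one]; exact M.one_mem, fun h => ?_⟩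
      rw [map_one] at h
      exact absurd h (by decide)
    | swap_mul τ x y hxy ih =>
      rw [map_mul, Perm.sign_swap hxy]
      constructor
      · intro h
        exact ih.2 (by rcases Int.units_eq_one_or (Perm.sign τ) with e | e <;> simp_all) x y hxy
      · intro h p q hpq
        rw [map_mul, map_mul, ← mul_assoc, Perm.ofSubtype_swap_eq, Perm.ofSubtype_swap_eq]
        exact M.mul_mem (hpair p q x y p.2 q.2 x.2 y.2 (fun e => hpq (Subtype.ext e))
          (fun e => hxy (Subtype.ext e)))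
          (ih.1 (by rcases Int.units_eq_one_or (Perm.sign τ) with e | e <;> simp_all))
  have hinv : ∀ x, σ x ≠ D ↔ x ≠ D := fun x =>
    ⟨fun h e => h (by rw [e, hD]), fun h e => h (σ.injective (e.trans hD.symm))⟩
  have he : Perm.ofSubtype (σ.subtypePerm hinv) = σ :=
    Perm.ofSubtype_subtypePerm (p := fun x => x ≠ D) (h₁ := hinv) (fun x hx e => hx (by rw [e, hD]))
  rw [← he] at hσ ⊢
  rw [Perm.sign_ofSubtype] at hσ
  exact (key _).1 hσ

variable {G Ω : Type*} [Group G] [Finite G] [MulAction G Ω] [FaithfulSMul G Ω] [Fintype Ω]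

theorem marggraf_primitive [DecidableEq Ω] (hprim : IsPreprimitive G Ω) (Γ : Finset Ω) (h1 : 1 < Γ.card)
    (h2 : 2 * Γ.card < Fintype.card Ω)
    (hH : ∀ a ∈ Γ, ∀ b ∈ Γ, ∃ g : G, (∀ z ∉ Γ, g • z = z) ∧ g • a = b) :
    ∀ σ : Perm Ω, Perm.sign σ = 1 → ∃ x : G, (MulAction.toPerm x : Perm Ω) = σ := by
  set P := (MulAction.toPermHom G Ω).range with hP
  have hprimP : IsPreprimitive P Ω := by
    let f : Ω →ₑ[(MulAction.toPermHom G Ω).rangeRestrict] Ω := { toFun := id, map_smul' := fun _ _ => rfl }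
    exact IsPreprimitive.of_surjective (f := f) Function.surjective_id
  have hJ : Perm57.IsJordanSet P (Γ : Set Ω) := fun x hx y hy => by
    obtain ⟨g, hg, hgx⟩ := hH x hx y hy
    exact ⟨⟨MulAction.toPermHom G Ω g, g, rfl⟩, hg, hgx⟩
  intro σ hσ
  obtain ⟨g, hg⟩ := marggraf P hprimP Γ h1 h2 hJ (Perm.mem_alternatingGroup.mpr hσ)
  exact ⟨g, hg⟩

/-- Quasiprimitive groups with a small Jordan set are primitive. -/
theorem isPreprimitive_of_quasiprimitive
    (hqp : ∀ N : Subgroup G, N.Normal → N ≠ ⊥ → IsPretransitive N Ω)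
    (Γ : Finset Ω) (h1 : 1 < Γ.card) (h2 : 2 * Γ.card < Fintype.card Ω)
    (hH : ∀ a ∈ Γ, ∀ b ∈ Γ, ∃ g : G, (∀ z ∉ Γ, g • z = z) ∧ g • a = b) :
    IsPreprimitive G Ω := by
  obtain ⟨a, ha, b, hb, hab⟩ := Finset.one_lt_card.mp h1
  obtain ⟨h₀, hh₀, hh₀ab⟩ := hH a ha b hb
  have hh₀1 : h₀ ≠ 1 := fun e => hab (by rw [← hh₀ab, e, one_smul])
  haveI htrans : IsPretransitive G Ω := by
    have := hqp ⊤ inferInstance (fun e => hh₀1 (Subgroup.mem_bot.mp (e ▸ Subgroup.mem_top h₀)))
    exact ⟨fun x y => (this.exists_smul_eq x y).elim fun g hg => ⟨(g : G), hg⟩⟩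
  by_contra hnp
  obtain ⟨B0, hB0, hB0n⟩ : ∃ B : Set Ω, IsBlock G B ∧ ¬ IsTrivialBlock B := by
    by_contra h
    push_neg at h
    exact hnp { toIsPretransitive := htrans, isTrivialBlock_of_isBlock := fun {B} hB => h B hB }
  rw [IsTrivialBlock, not_or, Set.not_subsingleton_iff] at hB0n
  obtain ⟨B, ⟨hB, hBn, hBu⟩, hmax⟩ := Set.Finite.exists_maximalFor (fun B : Set Ω => B.ncard)
    {B : Set Ω | IsBlock G B ∧ B.Nontrivial ∧ B ≠ Set.univ} (Set.toFinite _) ⟨B0, hB0, hB0n⟩
  let Bl := MulAction.orbit G B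
  haveI : Fintype Bl := Fintype.ofFinite _
  have hblk : ∀ D : Bl, IsBlock G (D : Set Ω) := fun D => by
    obtain ⟨g, hg⟩ := D.2
    rw [← hg]; exact hB.translate g
  have heqD : ∀ (D D' : Bl) (z : Ω), z ∈ (D : Set Ω) → z ∈ (D' : Set Ω) → D = D' := by
    intro D D' z hz hz'
    obtain ⟨g, hg⟩ := D.2
    obtain ⟨g', hg'⟩ := D'.2
    rcases hB.smul_eq_smul_or_disjoint g g' with e | e
    · exact Subtype.ext (by rw [← hg, ← hg']; exact e)
    · rw [show g • B = (D : Set Ω) from hg, show g' • B = (D' : Set Ω) from hg'] at e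
      exact absurd hz' (Set.disjoint_left.mp e hz)
  obtain ⟨b₀, hb₀⟩ := hBn.nonempty
  choose tr htr using fun z : Ω => exists_smul_eq G b₀ z
  let π : Ω → Bl := fun z => ⟨tr z • B, tr z, rfl⟩
  have hπ : ∀ z, z ∈ (π z : Set Ω) := fun z => ⟨b₀, hb₀, htr z⟩
  have hπeq : ∀ (z : Ω) (D : Bl), z ∈ (D : Set Ω) → π z = D := fun z D hz => heqD _ _ z (hπ z) hz
  have hπg : ∀ (g : G) (z : Ω), π (g • z) = g • π z := fun g z =>
    hπeq _ _ (Set.smul_mem_smul_set (hπ z))
  -- faithful on blocks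
  set φ := MulAction.toPermHom G Bl with hφ
  have hφinj : Function.Injective φ := by
    rw [← MonoidHom.ker_eq_bot_iff]
    by_contra hne
    haveI := hqp _ inferInstance hne
    apply hBu
    rw [Set.eq_univ_iff_forall]
    intro z
    obtain ⟨⟨g, hg⟩, hgz⟩ := exists_smul_eq φ.ker b₀ z
    have h' := congrArg Subtype.val (Perm.congr_fun (MonoidHom.mem_ker.mp hg) (⟨B, 1, one_smul _ _⟩ : Bl))
    have h'' : g • B = B := h'
    rw [← h'']
    exact ⟨b₀, hb₀, hgz⟩
  have hfaith : ∀ g : G, (∀ D : Bl, g • D = D) → g = 1 := fun g hg =>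
    hφinj (by rw [map_one]; exact Equiv.ext hg)
  have hfix : ∀ (g : G) (D : Bl) (z : Ω), g • z = z → z ∈ (D : Set Ω) → g • D = D := fun g D z hz hD => by
    rw [← hπeq z D hD, ← hπg, hz]
  -- the Jordan set is a union of blocks
  have hunion : ∀ z ∈ Γ, ∀ w ∈ (π z : Set Ω), w ∈ Γ := by
    intro z hz w hw
    by_contra hwΓ
    apply hh₀1
    refine hfaith h₀ fun D => ?_
    obtain ⟨u, hu⟩ : ∃ u, u ∈ (D : Set Ω) := by
      obtain ⟨g, hg⟩ := D.2; exact ⟨g • b₀, hg ▸ Set.smul_mem_smul_set hb₀⟩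
    by_cases huΓ : u ∈ Γ
    · have hD : D = π z := by
        obtain ⟨g, hg, hgu⟩ := hH z hz u huΓ
        rw [← hπeq u D hu, ← hgu, hπg]
        exact hfix g _ w (hg w hwΓ) hw
      rw [hD]; exact hfix h₀ _ w (hh₀ w hwΓ) hw
    · exact hfix h₀ D u (hh₀ u huΓ) hu
  set Γb : Finset Bl := Γ.image π with hΓb
  have hmem : ∀ z, π z ∈ Γb ↔ z ∈ Γ := fun z => by
    rw [hΓb, Finset.mem_image]
    exact ⟨fun ⟨w, hw, e⟩ => hunion w hw z (e ▸ hπ z), fun h => ⟨z, h, rfl⟩⟩
  have hne : ∀ D : Bl, ∃ u, π u = D := fun D => by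
    obtain ⟨g, hg⟩ := D.2
    exact ⟨g • b₀, hπeq _ _ (hg ▸ Set.smul_mem_smul_set hb₀)⟩
  have hb2 : 1 < Γb.card := by
    by_contra h
    apply hh₀1
    refine hfaith h₀ fun D => ?_
    obtain ⟨u, rfl⟩ := hne D
    by_cases hu : u ∈ Γ
    · have h' : h₀ • u ∈ Γ := by
        by_contra hc
        have e : h₀ • u = u := MulAction.injective h₀ (hh₀ _ hc)
        exact hc (by rw [e]; exact hu)
      rw [← hπg]
      exact Finset.card_le_one.mp (by omega) _ ((hmem _).mpr h') _ ((hmem u).mpr hu)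
    · exact hfix h₀ _ u (hh₀ u hu) (hπ u)
  -- counting
  have hfib : ∀ D : Bl, (Finset.univ.filter fun z => π z = D).card = B.ncard := fun D => by
    obtain ⟨g, hg⟩ := D.2
    rw [← Set.ncard_coe_finset, ← Set.ncard_smul_set g B]
    congr 1
    ext z
    simp only [Finset.coe_filter, Finset.mem_univ, true_and, Set.mem_setOf_eq]
    rw [show g • B = (D : Set Ω) from hg]
    exact ⟨fun e => e ▸ hπ z, hπeq z D⟩
  have hd : 2 ≤ B.ncard := Set.one_lt_ncard_iff_nontrivial.mpr hBn
  have hn : Fintype.card Ω = Fintype.card Bl * B.ncard := by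
    rw [← Finset.card_univ, Finset.card_eq_sum_card_fiberwise (f := π) (t := Finset.univ)
      (fun _ _ => Finset.mem_univ _), Finset.sum_congr rfl (fun D _ => hfib D), Finset.sum_const,
      Finset.card_univ, smul_eq_mul]
  have hk : Γ.card = Γb.card * B.ncard := by
    rw [Finset.card_eq_sum_card_fiberwise (f := π) (t := Γb) (fun z hz => (hmem z).mpr hz),
      Finset.sum_congr rfl (g := fun _ => B.ncard) fun D hD => ?_, Finset.sum_const, smul_eq_mul]
    rw [← hfib D]
    congr 1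
    ext z
    simp only [Finset.mem_filter, Finset.mem_univ, true_and, and_iff_right_iff_imp]
    rintro rfl; exact (hmem z).mp hD
  have hlt : 2 * Γb.card < Fintype.card Bl := by
    by_contra h
    have := Nat.mul_le_mul_right B.ncard (show Fintype.card Bl ≤ 2 * Γb.card by omega)
    rw [mul_assoc] at this
    omega
  -- the action on blocks is primitive
  have hprimB : IsPreprimitive φ.range Bl := by
    have hp : IsPreprimitive G Bl := by
      refine { isTrivialBlock_of_isBlock := fun {C} hC => ?_ }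
      by_contra hnt
      rw [IsTrivialBlock, not_or, Set.not_subsingleton_iff] at hnt
      obtain ⟨⟨D1, hD1, D2, hD2, hD12⟩, hCu⟩ := hnt
      let U : Set Ω := π ⁻¹' C
      have hU : IsBlock G U := by
        rw [IsBlock.eq_1] <;> intro g g' hgg
        have e : ∀ g : G, g • U = π ⁻¹' (g • C) := fun g => by
          ext z
          simp only [U, Set.mem_smul_set_iff_inv_smul_mem, Set.mem_preimage, hπg]
        rw [e, e]
        refine Disjoint.preimage π (hC ?_)
        intro h; exact hgg (by rw [e, e, h])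
      have hUu : U ≠ Set.univ := fun e => hCu (Set.eq_univ_of_forall fun D => by
        obtain ⟨u, rfl⟩ := hne D
        exact (e.symm ▸ Set.mem_univ u : u ∈ U))
      have hsub : (D1 : Set Ω) ∪ (D2 : Set Ω) ⊆ U := by
        rintro z (hz | hz) <;> simp only [U, Set.mem_preimage, hπeq z _ hz, hD1, hD2]
      have hcD : ∀ D : Bl, (D : Set Ω).ncard = B.ncard := fun D => by
        obtain ⟨g, hg⟩ := D.2
        rw [← hg]; exact Set.ncard_smul_set g B
      have hdis : Disjoint (D1 : Set Ω) (D2 : Set Ω) :=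
        Set.disjoint_left.mpr fun z h1 h2 => hD12 (heqD _ _ z h1 h2)
      have h2B : B.ncard + B.ncard ≤ U.ncard := by
        have := Set.ncard_le_ncard hsub
        rwa [Set.ncard_union_eq hdis, hcD, hcD] at this
      have hUn : U.Nontrivial := Set.one_lt_ncard_iff_nontrivial.mp (by omega)
      have := hmax (j := U) ⟨hU, hUn, hUu⟩ (show B.ncard ≤ U.ncard by omega)
      simp only at this
      omega
    haveI := hp
    let f : Bl →ₑ[φ.rangeRestrict] Bl := { toFun := id, map_smul' := fun _ _ => rfl }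
    exact IsPreprimitive.of_surjective (f := f) Function.surjective_id
  have hJb : Perm57.IsJordanSet φ.range (Γb : Set Bl) := by
    intro D hD D' hD'
    rw [Finset.mem_coe, hΓb, Finset.mem_image] at hD hD'
    obtain ⟨z, hz, rfl⟩ := hD
    obtain ⟨w, hw, rfl⟩ := hD'
    obtain ⟨g, hg, hgz⟩ := hH z hz w hw
    refine ⟨⟨φ g, g, rfl⟩, fun E hE => ?_, ?_⟩
    · obtain ⟨u, rfl⟩ := hne E
      show g • π u = π u
      rw [← hπg, hg u fun h => hE ((hmem u).mpr h)]
    · show g • π z = π w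
      rw [← hπg, hgz]
  have halt := marggraf φ.range hprimB Γb hb2 hlt hJb
  -- the blocks used
  obtain ⟨A, hA, A', hA', hAA⟩ := Finset.one_lt_card.mp hb2
  obtain ⟨D, hD, C, hC, E, hE, hDC, hDE, hCE⟩ := Finset.two_lt_card.mp
    (show 2 < (Γbᶜ : Finset Bl).card by rw [Finset.card_compl]; omega)
  rw [Finset.mem_compl] at hD hC hE
  obtain ⟨z, hz, rfl⟩ := Finset.mem_image.mp hA
  obtain ⟨w, hw, rfl⟩ := Finset.mem_image.mp hA'
  obtain ⟨h, hh, hhz⟩ := hH z hz w hw
  have hhA : φ h (π z) = π w := by show h • π z = π w; rw [← hπg, hhz]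
  have hhfix : ∀ F : Bl, F ∉ Γb → φ h F = F := fun F hF => by
    obtain ⟨u, rfl⟩ := hne F
    show h • π u = π u
    rw [← hπg, hh u fun h' => hF ((hmem u).mpr h')]
  let N : Subgroup G := fixingSubgroup G (D : Set Ω)
  have hNconj : ∀ g : G, φ g D = D → ∀ n ∈ N, g * n * g⁻¹ ∈ N := fun g hg n hn => by
    rw [mem_fixingSubgroup_iff] at hn ⊢
    intro u hu
    have hinv : g⁻¹ • u ∈ (D : Set Ω) := by
      have h' : g • (D : Set Ω) = (D : Set Ω) := congrArg Subtype.val hg
      rw [← Set.mem_smul_set_iff_inv_smul_mem, h']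
      exact hu
    rw [mul_smul, mul_smul, hn _ hinv, smul_inv_smul]
  have hhN : h ∈ N := (mem_fixingSubgroup_iff G).mpr fun u hu => hh u fun h' =>
    hD ((hπeq u D hu) ▸ (hmem u).mpr h')
  have hlift : ∀ s : Perm Bl, Perm.sign s = 1 → ∃ g : G, φ g = s := fun s hs =>
    halt (Perm.mem_alternatingGroup.mpr hs)
  have hzC : π z ≠ C := fun e => hC (e ▸ hA)
  have hzE : π z ≠ E := fun e => hE (e ▸ hA)
  have hzD : π z ≠ D := fun e => hD (e ▸ hA)
  have hwC : π w ≠ C := fun e => hC (e ▸ hA')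
  have hwD : π w ≠ D := fun e => hD (e ▸ hA')
  obtain ⟨t, ht⟩ := hlift (swap (π z) C * swap C E)
    (by rw [map_mul, Perm.sign_swap hzC, Perm.sign_swap hCE]; decide)
  have htD : φ t D = D := by
    rw [ht, Perm.mul_apply, swap_apply_of_ne_of_ne hDC hDE, swap_apply_of_ne_of_ne hzD.symm hDC]
  have hc : φ h * (φ t * (φ h)⁻¹ * (φ t)⁻¹) = swap (π w) C * swap (π z) C := by
    have e : ∀ p q : Bl, φ h * swap p q * (φ h)⁻¹ = swap (φ h p) (φ h q) := fun p q => by
      rw [← Equiv.swap_apply_apply]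
    rw [ht, mul_inv_rev, Equiv.swap_inv, Equiv.swap_inv,
      show φ h * (swap (π z) C * swap C E * (φ h)⁻¹ * (swap C E * swap (π z) C)) =
        (φ h * swap (π z) C * (φ h)⁻¹) * (φ h * swap C E * (φ h)⁻¹) * (swap C E * swap (π z) C) by group,
      e, e, hhA, hhfix C hC, hhfix E hE, mul_assoc, ← mul_assoc (swap C E), swap_mul_self, one_mul]
  let M : Subgroup (Perm Bl) := N.map φ
  have hcM : swap (π w) C * swap (π z) C ∈ M := by
    rw [← hc]
    refine ⟨h * (t * h⁻¹ * t⁻¹), N.mul_mem hhN (hNconj t htD _ (N.inv_mem hhN)), ?_⟩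
    simp only [map_mul, map_inv]
  have hzw : π w ≠ π z := fun e => hAA e.symm
  have h3 : ∀ P Q R : Bl, P ≠ D → Q ≠ D → R ≠ D → P ≠ Q → P ≠ R → Q ≠ R →
      swap P R * swap Q R ∈ M := by
    intro P Q R hP hQ hR hPQ hPR hQR
    obtain ⟨s, hs⟩ := Perm.exists_extending_pair ![π w, π z, C, D] ![P, Q, R, D]
      (inj4 hzw hwC hwD hzC hzD hDC.symm) (inj4 hPQ hPR hP hQR hQ hR)
    have s0 : s (π w) = P := hs 0
    have s1 : s (π z) = Q := hs 1
    have s2 : s C = R := hs 2
    have s3 : s D = D := hs 3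
    have econj : ∀ (s : Perm Bl) (p q : Bl), s * swap p q * s⁻¹ = swap (s p) (s q) := fun s p q => by
      rw [← Equiv.swap_apply_apply]
    have hconjM : ∀ s : Perm Bl, Perm.sign s = 1 → s D = D →
        swap (s (π w)) (s C) * swap (s (π z)) (s C) ∈ M := by
      intro s hs1 hsD
      obtain ⟨g, hg⟩ := hlift s hs1
      obtain ⟨n, hn, hne⟩ := hcM
      refine ⟨g * n * g⁻¹, hNconj g (by rw [hg]; exact hsD) n hn, ?_⟩
      rw [map_mul, map_mul, map_inv, hne, hg, ← econj s, ← econj s]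
      group
    rcases Int.units_eq_one_or (Perm.sign s) with he | he
    · have := hconjM s he s3
      rwa [s0, s1, s2] at this
    · have := M.inv_mem (hconjM (s * swap (π w) (π z))
        (by rw [map_mul, he, Perm.sign_swap hzw]; decide)
        (by rw [Perm.mul_apply, swap_apply_of_ne_of_ne hwD.symm hzD.symm, s3]))
      simp only [Perm.mul_apply, swap_apply_left, swap_apply_right,
        swap_apply_of_ne_of_ne hwC.symm hzC.symm, s0, s1, s2, mul_inv_rev, Equiv.swap_inv] at this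
      exact this
  have heven : ∀ g : G, Perm.sign (φ g) = 1 → φ g D = D → g ∈ N := fun g h1' h2' => by
    obtain ⟨n, hn, hne'⟩ := even_fix_mem D M h3 h1' h2'
    exact hφinj hne' ▸ hn
  -- the even part is transitive
  let K : Subgroup G := (alternatingGroup Bl).comap φ
  have hK : K ≠ ⊥ := by
    intro e
    have hmem' : t ∈ K := by
      show φ t ∈ alternatingGroup Bl
      rw [ht, Perm.mem_alternatingGroup, map_mul, Perm.sign_swap hzC, Perm.sign_swap hCE]; decide
    rw [e, Subgroup.mem_bot] at hmem'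
    rw [hmem', map_one] at ht
    have := Perm.congr_fun ht E
    rw [Perm.one_apply, Perm.mul_apply, swap_apply_right, swap_apply_right] at this
    exact hzE this.symm
  haveI := hqp K inferInstance hK
  obtain ⟨u, hu, v, hv, huv⟩ : (D : Set Ω).Nontrivial := by
    obtain ⟨g, hg⟩ := D.2
    rw [← hg, ← Set.one_lt_ncard_iff_nontrivial]
    rw [show (fun m => m • B) g = g • B from rfl, Set.ncard_smul_set]; omega
  obtain ⟨⟨g, hg⟩, hgu⟩ := exists_smul_eq K u v
  have hgD : φ g D = D := by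
    show g • D = D
    rw [← hπeq u D hu, ← hπg, show g • u = v from hgu, hπeq v D hv, hπeq u D hu]
  have hgN := heven g (Perm.mem_alternatingGroup.mp hg) hgD
  exact huv (by rw [← show g • u = v from hgu, (mem_fixingSubgroup_iff G).mp hgN u hu])

end CfsgLib.Marg54
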