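import Cfsg.Agent.Marg54.Count

/-!
No 4-transitive group has a regular Jordan set of minimal degree below half.
-/

set_option autoImplicit false

namespace CfsgLib.Marg54

open MulAction

universe u

variable {G : Type*} {α : Type u} [Group G] [Fintype G] [DecidableEq G] [MulAction G α]
  [Fintype α] [DecidableEq α]

/-- The sign of the fourth moment polynomial. -/
theorem moment_poly {k n : ℤ} (hk : 4 ≤ k) (hn : 2 * k + 1 ≤ n) :
    2 * (k * (k - 1) * (k - 2) * (k - 3)) ^ 2 +
      (12 - 5 * (k - 1)) * (k * (k - 1) * (k - 2)) ^ 2 * (n - 3) +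
      (14 - 15 * (k - 1) + 4 * (k - 1) ^ 2) * (k * (k - 1)) ^ 2 * ((n - 2) * (n - 3)) +
      (2 - 5 * (k - 1) + 4 * (k - 1) ^ 2 - (k - 1) ^ 3) * k ^ 2 *
        ((n - 1) * (n - 2) * (n - 3)) < 0 := by
  obtain ⟨a, ha, rfl⟩ : ∃ a, 0 ≤ a ∧ k = a + 4 := ⟨k - 4, by omega, by omega⟩
  obtain ⟨b, hb, rfl⟩ : ∃ b, 0 ≤ b ∧ n = 2 * (a + 4) + 1 + b := ⟨n - (2 * (a + 4) + 1), by omega, by omega⟩
  rw [← neg_pos]
  ring_nf
  positivity

theorem exists_small_inter (hK : LW54.KT G α 4) (S : Finset α) (h4 : 4 ≤ S.card)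
    (hn : 2 * S.card + 1 ≤ Fintype.card α) :
    ∃ g : G, 0 < (S.filter fun z => g • z ∈ S).card ∧
      2 * (S.filter fun z => g • z ∈ S).card + 1 < S.card := by
  by_contra hcon
  push_neg at hcon
  let c : G → ℕ := fun g => (S.filter fun z => g • z ∈ S).card
  set k := S.card with hkdef
  set n := Fintype.card α with hndef
  have hM : ∀ j, j ≤ 4 → (∑ g : G, ((c g).descFactorial j : ℤ)) * (n.descFactorial j : ℤ)
      = (k.descFactorial j : ℤ) * k.descFactorial j * Fintype.card G := fun j hj => by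
    exact_mod_cast moment (hK.mono hj) S
  have d2 : ∀ a : ℕ, ((a.descFactorial 2 : ℕ) : ℤ) = (a : ℤ) * ((a : ℤ) - 1) := fun a => by
    rcases a with _ | a
    · simp
    · simp [Nat.descFactorial_succ]; ring
  have d3 : ∀ a : ℕ, ((a.descFactorial 3 : ℕ) : ℤ) = (a : ℤ) * ((a : ℤ) - 1) * ((a : ℤ) - 2) := fun a => by
    rcases a with _ | _ | a <;> simp [Nat.descFactorial_succ]; ring
  have d4 : ∀ a : ℕ, ((a.descFactorial 4 : ℕ) : ℤ) =
      (a : ℤ) * ((a : ℤ) - 1) * ((a : ℤ) - 2) * ((a : ℤ) - 3) := fun a => by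
    rcases a with _ | _ | _ | a <;> simp [Nat.descFactorial_succ]; ring
  have h1 := hM 1 (by omega)
  have h2 := hM 2 (by omega)
  have h3 := hM 3 (by omega)
  have h4' := hM 4 le_rfl
  simp only [d2, d3, d4, Nat.descFactorial_one] at h1 h2 h3 h4'
  set C : ℤ := (k : ℤ) - 1
  set s1 := ∑ g : G, (c g : ℤ)
  set s2 := ∑ g : G, (c g : ℤ) * ((c g : ℤ) - 1)
  set s3 := ∑ g : G, (c g : ℤ) * ((c g : ℤ) - 1) * ((c g : ℤ) - 2)
  set s4 := ∑ g : G, (c g : ℤ) * ((c g : ℤ) - 1) * ((c g : ℤ) - 2) * ((c g : ℤ) - 3)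
  have hpos : 0 ≤ 2 * s4 + (12 - 5 * C) * s3 + (14 - 15 * C + 4 * C ^ 2) * s2 +
      (2 - 5 * C + 4 * C ^ 2 - C ^ 3) * s1 := by
    simp only [s1, s2, s3, s4, Finset.mul_sum, ← Finset.sum_add_distrib]
    refine Finset.sum_nonneg fun g _ => ?_
    have e : ∀ i : ℤ, 2 * (i * (i - 1) * (i - 2) * (i - 3)) + (12 - 5 * C) * (i * (i - 1) * (i - 2)) +
        (14 - 15 * C + 4 * C ^ 2) * (i * (i - 1)) + (2 - 5 * C + 4 * C ^ 2 - C ^ 3) * i =
        i * (2 * i - C) * (i - C) ^ 2 := fun i => by ring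
    rw [e]
    rcases Nat.eq_zero_or_pos (c g) with hz | hp
    · simp [hz]
    · have := hcon g hp
      refine mul_nonneg (mul_nonneg (Int.natCast_nonneg _) ?_) (sq_nonneg _)
      simp only [C]
      have h' : k ≤ 2 * c g + 1 := this
      omega
  have hG : (0 : ℤ) < Fintype.card G := by exact_mod_cast Fintype.card_pos
  have hk' : (4 : ℤ) ≤ k := by exact_mod_cast h4
  have hn' : 2 * (k : ℤ) + 1 ≤ n := by exact_mod_cast hn
  have hneg := mul_neg_of_neg_of_pos (moment_poly hk' hn') hG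
  have hN : (0 : ℤ) ≤ n * (n - 1) * (n - 2) * (n - 3) :=
    mul_nonneg (mul_nonneg (mul_nonneg (by omega) (by omega)) (by omega)) (by omega)
  have hb := mul_nonneg hpos hN
  have e : (2 * s4 + (12 - 5 * C) * s3 + (14 - 15 * C + 4 * C ^ 2) * s2 +
      (2 - 5 * C + 4 * C ^ 2 - C ^ 3) * s1) * ((n : ℤ) * (n - 1) * (n - 2) * (n - 3)) =
      2 * (s4 * ((n : ℤ) * (n - 1) * (n - 2) * (n - 3))) +
      (12 - 5 * C) * (s3 * ((n : ℤ) * (n - 1) * (n - 2))) * (n - 3) +
      (14 - 15 * C + 4 * C ^ 2) * (s2 * ((n : ℤ) * (n - 1))) * ((n - 2) * (n - 3)) +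
      (2 - 5 * C + 4 * C ^ 2 - C ^ 3) * (s1 * (n : ℤ)) * ((n - 1) * (n - 2) * (n - 3)) := by ring
  rw [e, h4', h3, h2, h1] at hb
  simp only [C] at hb
  nlinarith [hb, hneg]

theorem no_regular (hK : LW54.KT G α 4) (S : Finset α) (h4 : 4 ≤ S.card)
    (hn : 2 * S.card + 1 ≤ Fintype.card α)
    (hH : ∀ a ∈ S, ∀ b ∈ S, ∃ g : G, (mv g : Finset α) ⊆ S ∧ g • a = b)
    (hmin : ∀ g : G, g ≠ 1 → S.card ≤ (mv g : Finset α).card) : False := by
  obtain ⟨g, hi0, hik⟩ := exists_small_inter hK S h4 hn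
  set k := S.card with hkdef
  set T : Finset α := S.image (g⁻¹ • ·) with hT
  have hTc : T.card = k := by rw [hT, Finset.card_image_of_injective _ (MulAction.injective _)]
  have hmT : ∀ z, z ∈ T ↔ g • z ∈ S := fun z => by
    rw [hT, Finset.mem_image]
    exact ⟨fun ⟨w, hw, e⟩ => by rw [← e, smul_inv_smul]; exact hw,
      fun h => ⟨_, h, inv_smul_smul _ _⟩⟩
  set I := S ∩ T with hI
  have hIc : I.card = (S.filter fun z => g • z ∈ S).card := by
    congr 1; ext z; simp [hI, hmT]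
  rw [← hIc] at hi0 hik
  -- the two groups
  set Hx := (Finset.univ : Finset G).filter fun x => x ≠ 1 ∧ (mv x : Finset α) = S with hHx
  set Hy := (Finset.univ : Finset G).filter fun x => x ≠ 1 ∧ (mv x : Finset α) = T with hHy
  have htr : ∀ a ∈ S, ∀ b ∈ S, a ≠ b → ∃ x ∈ Hx, x • a = b := by
    intro a ha b hb hab
    obtain ⟨x, hxS, hxab⟩ := hH a ha b hb
    have hx1 : x ≠ 1 := fun e => hab (by rw [← hxab, e, one_smul])
    exact ⟨x, by simp [hHx, hx1, Finset.eq_of_subset_of_card_le hxS (hmin x hx1)], hxab⟩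
  have hconj : ∀ x ∈ Hx, g⁻¹ * x * g ∈ Hy := by
    intro x hx
    simp only [hHx, Finset.mem_filter, Finset.mem_univ, true_and] at hx
    simp only [hHy, Finset.mem_filter, Finset.mem_univ, true_and]
    refine ⟨fun e => hx.1 (by simpa [mul_assoc] using congrArg (fun t => g * t * g⁻¹) e), ?_⟩
    ext z
    rw [hmT, ← hx.2, mem_mv, mem_mv, mul_smul, mul_smul, ne_eq, ne_eq, inv_smul_eq_iff]
  have htrT : ∀ a ∈ T, ∀ b ∈ T, a ≠ b → ∃ y ∈ Hy, y • a = b := by
    intro a ha b hb hab
    obtain ⟨x, hx, hxab⟩ := htr _ ((hmT a).mp ha) _ ((hmT b).mp hb)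
      (fun e => hab (MulAction.injective g e))
    exact ⟨_, hconj x hx, by rw [mul_smul, mul_smul, hxab, inv_smul_smul]⟩
  -- averaging
  have key : ∀ (U : Finset α) (H : Finset G), (∀ a ∈ U, ∀ b ∈ U, a ≠ b → ∃ x ∈ H, x • a = b) →
      (∀ x ∈ H, ∀ y ∈ H, ∀ z ∈ U, x • z = y • z → x = y) → U.card = k → I ⊆ U →
      ∃ x ∈ H, (k - 1) * ((U \ I).filter fun z => x • z ∈ I).card ≤ (k - I.card) * I.card := by
    intro U H hU hinj hUc hIU
    obtain ⟨a, ha⟩ := Finset.card_pos.mp (show 0 < U.card by omega)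
    have hcard : k - 1 ≤ H.card := by
      rw [← hUc, ← Finset.card_erase_of_mem ha]
      choose f hf hfe using fun b (hb : b ∈ U.erase a) =>
        hU a ha b (Finset.mem_of_mem_erase hb) (Finset.ne_of_mem_erase hb).symm
      rw [← Finset.card_attach]
      exact Finset.card_le_card_of_injOn (fun b => f b.1 b.2) (fun b _ => hf b.1 b.2)
        fun b _ c _ h => Subtype.ext (by rw [← hfe b.1 b.2, ← hfe c.1 c.2, show f b.1 b.2 = f c.1 c.2 from h])
    have hne : H.Nonempty := Finset.card_pos.mp (by omega)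
    obtain ⟨x, hx, hmin'⟩ := Finset.exists_min_image H
      (fun x => ((U \ I).filter fun z => x • z ∈ I).card) hne
    refine ⟨x, hx, ?_⟩
    calc (k - 1) * _ ≤ H.card * ((U \ I).filter fun z => x • z ∈ I).card :=
          Nat.mul_le_mul_right _ hcard
      _ ≤ ∑ y ∈ H, ((U \ I).filter fun z => y • z ∈ I).card := by
          rw [← smul_eq_mul]; exact Finset.card_nsmul_le_sum _ _ _ hmin'
      _ = (H.sigma fun y => (U \ I).filter fun z => y • z ∈ I).card := (Finset.card_sigma _ _).symm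
      _ ≤ ((U \ I) ×ˢ I).card := by
          refine Finset.card_le_card_of_injOn (fun p => (p.2, p.1 • p.2)) (fun p hp => ?_) ?_
          · simp only [Finset.coe_sigma, Set.mem_sigma_iff, Finset.coe_filter, Set.mem_setOf_eq] at hp
            simpa using And.intro hp.2.1 hp.2.2
          · rintro ⟨y, z⟩ hp ⟨y', z'⟩ hp' h
            simp only [Finset.coe_sigma, Set.mem_sigma_iff, Finset.coe_filter, Set.mem_setOf_eq,
              Finset.mem_coe] at hp hp'
            simp only [Prod.mk.injEq] at h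
            obtain ⟨rfl, h⟩ := h
            rw [hinj y hp.1 y' hp'.1 z (Finset.mem_sdiff.mp hp.2.1).1 h]
      _ = (k - I.card) * I.card := by
          rw [Finset.card_product, Finset.card_sdiff_of_subset hIU, hUc]
  have hsemi : ∀ (U : Finset α), U.card = k → ∀ x y : G, (mv x : Finset α) = U → (mv y : Finset α) = U →
      ∀ z ∈ U, x • z = y • z → x = y := by
    intro U hUc x y hx hy z hz he
    by_contra hne
    have hsub : (mv (y⁻¹ * x) : Finset α) ⊆ U.erase z := fun w hw => by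
      rw [mem_mv, mul_smul] at hw
      refine Finset.mem_erase.mpr ⟨fun e => hw (by rw [e, he, inv_smul_smul]), ?_⟩
      by_contra hwU
      have e1 : x • w = w := notMem_mv.mp (by rw [hx]; exact hwU)
      have e2 : y • w = w := notMem_mv.mp (by rw [hy]; exact hwU)
      exact hw (by rw [e1, inv_smul_eq_iff, e2])
    have h1 := hmin (y⁻¹ * x) (fun e => hne (inv_mul_eq_one.mp e).symm)
    have h2 := Finset.card_le_card hsub
    rw [Finset.card_erase_of_mem hz, hUc] at h2
    omega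
  have hHxS : ∀ x ∈ Hx, x ≠ 1 ∧ (mv x : Finset α) = S := fun x hx => by simpa [hHx] using hx
  have hHyT : ∀ y ∈ Hy, y ≠ 1 ∧ (mv y : Finset α) = T := fun y hy => by simpa [hHy] using hy
  obtain ⟨x, hx, hA⟩ := key S Hx htr
    (fun x hx y hy => hsemi S rfl x y (hHxS x hx).2 (hHxS y hy).2) rfl Finset.inter_subset_left
  -- the contradiction from a commutator
  have fin : ∀ y ∈ Hy, (∃ z : α, x • y • z ≠ y • x • z) →
      k ≤ I.card + ((S \ I).filter fun z => x • z ∈ I).card + ((T \ I).filter fun z => y • z ∈ I).card := by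
    intro y hy hz
    have hne : x * y * x⁻¹ * y⁻¹ ≠ 1 := fun e => by
      obtain ⟨z, hz⟩ := hz
      apply hz
      rw [← mul_smul, ← mul_smul, show x * y = x * y * x⁻¹ * y⁻¹ * (y * x) by group, e, one_mul]
    have h1 := hmin _ hne
    rw [card_mv_commutator] at h1
    refine h1.trans ((Finset.card_le_card (?_ : ncp x y ⊆ I ∪ (S \ I).filter (fun z => x • z ∈ I) ∪
      (T \ I).filter (fun z => y • z ∈ I))).trans ?_)
    · refine ncp_subset.trans fun z hz => ?_
      rw [(hHxS x hx).2, (hHyT y hy).2] at hz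
      simp only [Finset.mem_union, Finset.mem_filter, Finset.mem_sdiff, Finset.mem_inter, hI] at hz ⊢
      have e1 : z ∈ S → x • z ∈ S := fun h => by
        rw [← (hHxS x hx).2] at h ⊢; exact smul_mem_mv h
      have e2 : z ∈ T → y • z ∈ T := fun h => by
        rw [← (hHyT y hy).2] at h ⊢; exact smul_mem_mv h
      tauto
    · exact (Finset.card_union_le _ _).trans (Nat.add_le_add_right (Finset.card_union_le _ _) _)
  rcases Nat.eq_zero_or_pos ((S \ I).filter fun z => x • z ∈ I).card with hA0 | hA1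
  · obtain ⟨w, hw⟩ := Finset.card_pos.mp hi0
    have hw' := Finset.mem_inter.mp hw
    obtain ⟨u, hu, huS⟩ : ∃ u ∈ T, u ∉ S := by
      by_contra h
      push_neg at h
      have h' := Finset.card_le_card (Finset.subset_inter (fun z hz => h z hz) (Finset.Subset.refl T))
      rw [← hI] at h'
      omega
    obtain ⟨y, hy, hyw⟩ := htrT w hw'.2 u hu (fun e => huS (e ▸ hw'.1))
    have hxw : x • w ∈ I := by
      -- the intersection is invariant
      by_contra h
      have hsub : I.image (x⁻¹ • ·) ⊆ I := by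
        intro z hz
        obtain ⟨v, hv, rfl⟩ := Finset.mem_image.mp hz
        by_contra hvI
        have hvS : x⁻¹ • v ∈ S := by
          rw [← (hHxS x hx).2, ← smul_mem_mv_iff (g := x), smul_inv_smul, (hHxS x hx).2]
          exact (Finset.mem_inter.mp hv).1
        have := Finset.card_eq_zero.mp hA0
        exact Finset.notMem_empty (x⁻¹ • v) (this ▸ Finset.mem_filter.mpr
          ⟨Finset.mem_sdiff.mpr ⟨hvS, hvI⟩, by rwa [smul_inv_smul]⟩)
      have heq := Finset.eq_of_subset_of_card_le hsub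
        (by rw [Finset.card_image_of_injective _ (MulAction.injective _)])
      rw [← heq] at hw
      obtain ⟨v, hv, hve⟩ := Finset.mem_image.mp hw
      apply h
      have : x • w = v := by rw [← hve, smul_inv_smul]
      rw [this]; exact hv
    have hxu : x • u = u := notMem_mv.mp (by rw [(hHxS x hx).2]; exact huS)
    have hbad : x • y • w ≠ y • x • w := by
      rw [hyw, hxu, ← hyw]
      intro e
      have := MulAction.injective y e
      exact mem_mv.mp (show w ∈ (mv x : Finset α) by rw [(hHxS x hx).2]; exact hw'.1) this.symm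
    have hf := fin y hy ⟨w, hbad⟩
    have hB : ((T \ I).filter fun z => y • z ∈ I).card ≤ I.card :=
      Finset.card_le_card_of_injOn (y • ·) (fun z hz => (Finset.mem_filter.mp hz).2)
        (MulAction.injective y).injOn
    omega
  · obtain ⟨z, hz⟩ := Finset.card_pos.mp hA1
    simp only [Finset.mem_filter, Finset.mem_sdiff] at hz
    obtain ⟨⟨hzS, hzI⟩, hxz⟩ := hz
    have hzT : z ∉ T := fun h => hzI (Finset.mem_inter.mpr ⟨hzS, h⟩)
    obtain ⟨y, hy, hB⟩ := key T Hy htrT
      (fun x hx y hy => hsemi T hTc x y (hHyT x hx).2 (hHyT y hy).2) hTc Finset.inter_subset_right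
    have hbad : x • y • z ≠ y • x • z := by
      rw [notMem_mv.mp (show z ∉ (mv y : Finset α) by rw [(hHyT y hy).2]; exact hzT)]
      intro e
      exact mem_mv.mp (show x • z ∈ (mv y : Finset α) by
        rw [(hHyT y hy).2]; exact (Finset.mem_inter.mp hxz).2) e.symm
    have hf := fin y hy ⟨z, hbad⟩
    obtain ⟨a, ha⟩ : ∃ a, k = 2 * I.card + 2 + a := ⟨k - (2 * I.card + 2), by omega⟩
    have h5 : (k - 1) * k ≤ (k - 1) * I.card + 2 * ((k - I.card) * I.card) := by
      calc (k - 1) * k ≤ (k - 1) * (I.card + ((S \ I).filter fun z => x • z ∈ I).card +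
          ((T \ I).filter fun z => y • z ∈ I).card) := Nat.mul_le_mul_left _ hf
        _ ≤ _ := by rw [Nat.mul_add, Nat.mul_add]; omega
    rw [show k - 1 = 2 * I.card + 1 + a by omega, show k - I.card = I.card + 2 + a by omega, ha] at h5
    nlinarith

end CfsgLib.Marg54
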